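import Mathlib

/-!
Binary coset actions: a criterion for being binary and a criterion for not being binary.
-/

set_option autoImplicit false
set_option linter.unusedSimpArgs false
set_option linter.unusedSectionVars false

namespace Cfsg.Agent.Lib.SzChar.BinAbs

section Abstract

variable {G : Type*} [Group G] (H : Subgroup G)

/-- `y` lies in the stabiliser of the coset `g H`. -/
def MC (g y : G) : Prop := g⁻¹ * y * g ∈ H

variable {H}

lemma smul_coe_eq_iff {g y : G} : y • (g : G ⧸ H) = (g : G ⧸ H) ↔ MC H g y := by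
  rw [MC, MulAction.Quotient.smul_coe, smul_eq_mul]
  rw [QuotientGroup.eq]
  constructor
  · intro h
    have h1 := H.inv_mem h
    have e : ((y * g)⁻¹ * g)⁻¹ = g⁻¹ * y * g := by group
    rwa [e] at h1
  · intro h
    have h1 := H.inv_mem h
    have e : (g⁻¹ * y * g)⁻¹ = (y * g)⁻¹ * g := by group
    rwa [e] at h1

lemma MC_one_mem {g : G} : MC H g 1 := by simp [MC, H.one_mem]

lemma MC_inv {g y : G} (h : MC H g y) : MC H g y⁻¹ := by
  have h1 := H.inv_mem h
  have e : (g⁻¹ * y * g)⁻¹ = g⁻¹ * y⁻¹ * g := by group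
  rwa [e] at h1

lemma MC_mul {g y y' : G} (h : MC H g y) (h' : MC H g y') : MC H g (y * y') := by
  have h1 := H.mul_mem h h'
  have e : (g⁻¹ * y * g) * (g⁻¹ * y' * g) = g⁻¹ * (y * y') * g := by group
  rwa [e] at h1

variable (H)

/-- A witness for non-binarity. -/
def Wit : Prop := ∃ g₁ g₂ g₃ z w v : G, MC H g₁ z ∧ MC H g₂ w ∧ MC H g₃ v ∧ z = w * v ∧
  ∀ a b : G, MC H g₁ a → MC H g₂ a → MC H g₃ b → z ≠ a * b

/-- The binary property. -/
def Binary : Prop := ∀ (n : ℕ) (I J : Fin n → G ⧸ H), 2 ≤ n →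
  (∀ i j : Fin n, i ≠ j → ∃ g : G, g • I i = J i ∧ g • I j = J j) → ∃ g : G, ∀ i, g • I i = J i

/-- The condition forcing the action to be binary. -/
def StarC : Prop := ∀ x y w h₁ h₂ : G, MC H x h₁ → MC H y h₂ → MC H w (h₂⁻¹ * h₁) → h₁ ≠ 1 → h₂ ≠ 1 →
  ∀ c, MC H x c ↔ MC H y c

variable {H}

theorem not_binary_of_wit (h : Wit H) : ¬ Binary H := by
  obtain ⟨g₁, g₂, g₃, z, w, v, hz, hw, hv, hzwv, hno⟩ := h
  intro hB
  have h01 : ∃ g : G, g • (g₁ : G ⧸ H) = g₁ ∧ g • (g₂ : G ⧸ H) = g₂ := ⟨1, by simp, by simp⟩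
  have h02 : ∃ g : G, g • (g₁ : G ⧸ H) = g₁ ∧ g • (g₃ : G ⧸ H) = z • (g₃ : G ⧸ H) :=
    ⟨z, smul_coe_eq_iff.2 hz, rfl⟩
  have h12 : ∃ g : G, g • (g₂ : G ⧸ H) = g₂ ∧ g • (g₃ : G ⧸ H) = z • (g₃ : G ⧸ H) := by
    refine ⟨w, smul_coe_eq_iff.2 hw, ?_⟩
    have e : z • (g₃ : G ⧸ H) = w • (v • (g₃ : G ⧸ H)) := by rw [hzwv, mul_smul]
    rw [e, smul_coe_eq_iff.2 hv]
  obtain ⟨g, hg⟩ := hB 3 ![(g₁ : G ⧸ H), (g₂ : G ⧸ H), (g₃ : G ⧸ H)]
    ![(g₁ : G ⧸ H), (g₂ : G ⧸ H), z • (g₃ : G ⧸ H)] (by norm_num) (by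
    intro i j hij
    fin_cases i <;> fin_cases j <;> simp at hij ⊢
    · exact h01
    · exact h02
    · obtain ⟨g, h1, h2⟩ := h01
      exact ⟨g, h2, h1⟩
    · exact h12
    · obtain ⟨g, h1, h2⟩ := h02
      exact ⟨g, h2, h1⟩
    · obtain ⟨g, h1, h2⟩ := h12
      exact ⟨g, h2, h1⟩)
  have h0 : g • (g₁ : G ⧸ H) = g₁ := hg 0
  have h1 : g • (g₂ : G ⧸ H) = g₂ := hg 1
  have h2 : g • (g₃ : G ⧸ H) = z • (g₃ : G ⧸ H) := hg 2
  have ha₁ : MC H g₁ g := smul_coe_eq_iff.1 h0
  have ha₂ : MC H g₂ g := smul_coe_eq_iff.1 h1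
  have hb : MC H g₃ (g⁻¹ * z) := by
    apply smul_coe_eq_iff.1
    rw [mul_smul, ← h2, inv_smul_smul]
  exact hno g (g⁻¹ * z) ha₁ ha₂ hb (by group)

theorem binary_of_star (hS : StarC H) : Binary H := by
  classical
  intro n I J hn hpair
  have key : ∀ S : Finset (Fin n), ∃ g : G, ∀ i ∈ S, g • I i = J i := by
    intro S
    induction S using Finset.induction_on with
    | empty => exact ⟨1, by simp⟩
    | insert k S hk ih =>
      obtain ⟨g, hg⟩ := ih
      by_cases hS0 : S = ∅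
      · subst hS0
        obtain ⟨j, hj⟩ : ∃ j : Fin n, k ≠ j := by
          by_contra hall
          push Not at hall
          have h0 := hall ⟨0, by omega⟩
          have h1 := hall ⟨1, by omega⟩
          have := h0.symm.trans h1
          simp at this
        obtain ⟨g', h1, -⟩ := hpair k j hj
        refine ⟨g', ?_⟩
        intro i hi
        simp only [insert_empty_eq, Finset.mem_singleton] at hi
        rw [hi, h1]
      · obtain ⟨i₀, hi₀⟩ := Finset.nonempty_iff_ne_empty.2 hS0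
        by_cases hω : g⁻¹ • J k = I k
        · refine ⟨g, ?_⟩
          intro i hi
          rcases Finset.mem_insert.1 hi with rfl | hi
          · rw [← hω, smul_inv_smul]
          · exact hg i hi
        · have hne : ∀ i ∈ S, i ≠ k := fun i hi h => hk (h ▸ hi)
          choose! gg hg1 hg2 using fun i (hi : i ∈ S) => hpair i k (hne i hi)
          -- representatives
          have hrep : ∀ ω : G ⧸ H, ∃ x : G, (x : G ⧸ H) = ω := fun ω => QuotientGroup.mk_surjective ω
          choose rp hrp using hrep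
          let hh : Fin n → G := fun i => g⁻¹ * gg i
          have hhfix : ∀ i ∈ S, MC H (rp (I i)) (hh i) := by
            intro i hi
            apply smul_coe_eq_iff.1
            rw [hrp, mul_smul, hg1 i hi, ← hg i hi, inv_smul_smul]
          have hhmove : ∀ i ∈ S, hh i • I k = g⁻¹ • J k := by
            intro i hi
            rw [mul_smul, hg2 i hi]
          have hh1 : ∀ i ∈ S, hh i ≠ 1 := by
            intro i hi h
            apply hω
            rw [← hhmove i hi, h, one_smul]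
          have hall : ∀ i ∈ S, ∀ c, MC H (rp (I i₀)) c ↔ MC H (rp (I i)) c := by
            intro i hi c
            refine hS (rp (I i₀)) (rp (I i)) (rp (I k)) (hh i₀) (hh i) (hhfix i₀ hi₀) (hhfix i hi) ?_
              (hh1 i₀ hi₀) (hh1 i hi) c
            apply smul_coe_eq_iff.1
            rw [hrp, mul_smul, hhmove i₀ hi₀, ← hhmove i hi, inv_smul_smul]
          refine ⟨g * hh i₀, ?_⟩
          intro i hi
          rcases Finset.mem_insert.1 hi with rfl | hi
          · rw [mul_smul, hhmove i₀ hi₀, smul_inv_smul]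
          · have h1 : MC H (rp (I i)) (hh i₀) := (hall i hi _).1 (hhfix i₀ hi₀)
            have h2 : hh i₀ • I i = I i := by
              have := smul_coe_eq_iff.2 h1
              rwa [hrp] at this
            rw [mul_smul, h2, hg i hi]
  obtain ⟨g, hg⟩ := key Finset.univ
  exact ⟨g, fun i => hg i (Finset.mem_univ i)⟩

/-- Transport along a conjugation. -/
lemma MC_map_conj {t g y : G} : MC (H.map (MulAut.conj t).toMonoidHom) g y ↔ MC H (g * t) y := by
  simp only [MC]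
  constructor
  · rintro ⟨w, hw, h⟩
    have h2 : t * w * t⁻¹ = g⁻¹ * y * g := h
    have e : (g * t)⁻¹ * y * (g * t) = t⁻¹ * (g⁻¹ * y * g) * t := by group
    rw [e, ← h2]
    simpa [mul_assoc] using hw
  · intro h
    refine ⟨_, h, ?_⟩
    show t * ((g * t)⁻¹ * y * (g * t)) * t⁻¹ = g⁻¹ * y * g
    group

theorem wit_of_map_conj (t : G) (h : Wit (H.map (MulAut.conj t).toMonoidHom)) : Wit H := by
  obtain ⟨g₁, g₂, g₃, z, w, v, hz, hw, hv, hzwv, hno⟩ := h
  refine ⟨g₁ * t, g₂ * t, g₃ * t, z, w, v, MC_map_conj.1 hz, MC_map_conj.1 hw, MC_map_conj.1 hv, hzwv, ?_⟩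
  intro a b ha hb hc
  exact hno a b (MC_map_conj.2 ha) (MC_map_conj.2 hb) (MC_map_conj.2 hc)

section Equiv

variable {G' : Type*} [Group G'] (e : G ≃* G') {H' : Subgroup G'}

lemma MC_comap {g y : G} : MC (H'.comap e.toMonoidHom) g y ↔ MC H' (e g) (e y) := by
  simp only [MC, Subgroup.mem_comap]
  have h : e.toMonoidHom (g⁻¹ * y * g) = (e g)⁻¹ * e y * e g := by
    simp
  rw [h]

theorem wit_of_comap (h : Wit (H'.comap e.toMonoidHom)) : Wit H' := by
  obtain ⟨g₁, g₂, g₃, z, w, v, hz, hw, hv, hzwv, hno⟩ := h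
  refine ⟨e g₁, e g₂, e g₃, e z, e w, e v, (MC_comap e).1 hz, (MC_comap e).1 hw, (MC_comap e).1 hv,
    by rw [hzwv, map_mul], ?_⟩
  intro a b ha hb hc hzab
  obtain ⟨a, rfl⟩ := e.surjective a
  obtain ⟨b, rfl⟩ := e.surjective b
  refine hno a b ((MC_comap e).2 ha) ((MC_comap e).2 hb) ((MC_comap e).2 hc) ?_
  apply e.injective
  rw [hzab, map_mul]

theorem star_of_comap (h : StarC (H'.comap e.toMonoidHom)) : StarC H' := by
  intro x y w h₁ h₂ hx hy hw h₁1 h₂1 c
  obtain ⟨x, rfl⟩ := e.surjective x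
  obtain ⟨y, rfl⟩ := e.surjective y
  obtain ⟨w, rfl⟩ := e.surjective w
  obtain ⟨h₁, rfl⟩ := e.surjective h₁
  obtain ⟨h₂, rfl⟩ := e.surjective h₂
  obtain ⟨c, rfl⟩ := e.surjective c
  have h3 := h x y w h₁ h₂ ((MC_comap e).2 hx) ((MC_comap e).2 hy)
    ((MC_comap e).2 (by simpa using hw))
    (fun h0 => h₁1 (by rw [h0, map_one])) (fun h0 => h₂1 (by rw [h0, map_one])) c
  rw [← MC_comap e, ← MC_comap e]
  exact h3

end Equiv

end Abstract

end Cfsg.Agent.Lib.SzChar.BinAbs
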