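import Mathlib

/-!
The additive problem behind the elementary abelian subgroups of the Suzuki groups: a proper additive
subgroup of a finite field of characteristic two is not "distributive" with respect to two of its
multiples.
-/

set_option autoImplicit false
set_option linter.unusedSimpArgs false
set_option linter.unusedSectionVars false

namespace Cfsg.Agent.Lib.SzChar.BinAdd

variable {F : Type*} [Field F] [Fintype F] [CharP F 2]

/-- If the preimage of a subgroup under an additive map is contained in it, the subgroup is invariant. -/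
lemma invariant_of_comap_le {A : Type*} [AddCommGroup A] [Finite A] (f : A →+ A) (V : AddSubgroup A)
    (h : ∀ x, f x ∈ V → x ∈ V) : ∀ x ∈ V, f x ∈ V := by
  have h1 : V.comap f ≤ V := fun x hx => h x hx
  have h2 : (V.comap f).index ∣ V.index := by
    rw [AddSubgroup.index_comap]
    exact AddSubgroup.relIndex_dvd_index_of_normal V f.range
  have h3 : V.index ≠ 0 := AddSubgroup.index_ne_zero_of_finite
  have h4 := Nat.le_of_dvd (Nat.pos_of_ne_zero h3) h2
  have h5 := AddSubgroup.card_mul_index (V.comap f)
  have h6 := AddSubgroup.card_mul_index V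
  have h7 : Nat.card V ≤ Nat.card (V.comap f) := by
    have h8 : 0 < (V.comap f).index := Nat.pos_of_ne_zero AddSubgroup.index_ne_zero_of_finite
    have h9 : 0 < V.index := Nat.pos_of_ne_zero h3
    have h10 : Nat.card V * V.index = Nat.card (V.comap f) * (V.comap f).index := by rw [h5, h6]
    by_contra hlt
    push Not at hlt
    have h11 : Nat.card (V.comap f) * (V.comap f).index < Nat.card V * V.index :=
      calc Nat.card (V.comap f) * (V.comap f).index
          ≤ Nat.card (V.comap f) * V.index := Nat.mul_le_mul_left _ h4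
        _ < Nat.card V * V.index := Nat.mul_lt_mul_of_pos_right hlt h9
    omega
  have h8 : V.comap f = V := AddSubgroup.eq_of_le_of_card_ge h1 h7
  intro x hx
  rw [← h8] at hx
  exact hx

lemma add_self' (x : F) : x + x = 0 := CharTwo.add_self_eq_zero x

/-- The additive map `x ↦ x ^ 2 / z + x`. -/
noncomputable def ff (z : F) : F →+ F where
  toFun x := x ^ 2 / z + x
  map_zero' := by simp
  map_add' x y := by
    have h : (x + y) ^ 2 = x ^ 2 + y ^ 2 := add_pow_char (R := F) x y 2 |>.trans (by rfl)
    rw [h, add_div]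
    ring

lemma ff_apply (z x : F) : ff z x = x ^ 2 / z + x := rfl

/-- The main statement. -/
theorem additive_main (V : AddSubgroup F) (h1 : (1 : F) ∈ V) (hne : V ≠ ⊤) :
    ∃ c₂ c₃ z₀ w₀ v₀ : F, c₂ ≠ 0 ∧ c₃ ≠ 0 ∧ z₀ ∈ V ∧ w₀ / c₂ ∈ V ∧ v₀ / c₃ ∈ V ∧ z₀ = w₀ + v₀ ∧
      ∀ a₀ b₀ : F, a₀ ∈ V → a₀ / c₂ ∈ V → b₀ / c₃ ∈ V → z₀ ≠ a₀ + b₀ := by
  have h2F : (2 : F) = 0 := CharP.cast_eq_zero F 2
  by_cases hcase : ∃ z ∈ V, z ≠ 0 ∧ ∃ x, x ∉ V ∧ x ^ 2 / z + x ∈ V
  · obtain ⟨z, hzV, hz0, x, hxV, hv⟩ := hcase
    set v := x ^ 2 / z + x with hvdef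
    have hx0 : x ≠ 0 := by
      rintro rfl
      exact hxV V.zero_mem
    have hxz : x + z ≠ 0 := by
      intro h
      have : x = z := by
        have h3 : x = x + (z + z) := by rw [add_self', add_zero]
        rw [h3, ← add_assoc, h, zero_add]
      exact hxV (this ▸ hzV)
    have hvz : v * z = x * (x + z) := by
      rw [hvdef]
      field_simp
    have hv0 : v ≠ 0 := by
      intro h
      rw [h, zero_mul] at hvz
      exact (mul_ne_zero hx0 hxz) hvz.symm
    refine ⟨x / v, (x + z) / v, z, x, x + z, div_ne_zero hx0 hv0, div_ne_zero hxz hv0, hzV, ?_, ?_, ?_, ?_⟩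
    · have : x / (x / v) = v := by field_simp
      rwa [this]
    · have : (x + z) / ((x + z) / v) = v := by field_simp
      rwa [this]
    · rw [← add_assoc, add_self', zero_add]
    · intro a₀ b₀ ha hab hb hz
      apply hxV
      -- `a₀ / d = a₀ + a₀ / b`
      have e1 : a₀ / ((x + z) / v) = a₀ + a₀ / (x / v) := by
        have e0 : v * x = (x + v) * (x + z) := by
          linear_combination (-1 : F) * hvz + (-(x ^ 2) - x * z) * h2F
        have e0' : v / (x + z) = 1 + v / x := by
          field_simp
          linear_combination e0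
        have e01 : a₀ / ((x + z) / v) = a₀ * (v / (x + z)) := by
          field_simp
        have e02 : a₀ / (x / v) = a₀ * (v / x) := by
          field_simp
        rw [e01, e02, e0', mul_add, mul_one]
      have e2 : z / ((x + z) / v) = x := by
        field_simp
        linear_combination hvz
      have h3 : z / ((x + z) / v) ∈ V := by
        have e3 : z / ((x + z) / v) = a₀ / ((x + z) / v) + b₀ / ((x + z) / v) := by
          rw [← add_div, ← hz]
        rw [e3, e1]
        exact V.add_mem (V.add_mem ha hab) hb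
      rwa [e2] at h3
  · push Not at hcase
    have hinv : ∀ z ∈ V, z ≠ 0 → ∀ x ∈ V, x ^ 2 / z ∈ V := by
      intro z hz hz0 x hx
      have h3 := invariant_of_comap_le (ff z) V (fun y hy => by
        by_contra hyV
        exact hcase z hz hz0 y hyV hy) x hx
      rw [ff_apply] at h3
      have h4 := V.add_mem h3 hx
      rwa [add_assoc, add_self', add_zero] at h4
    have hinv' : ∀ z ∈ V, z⁻¹ ∈ V := by
      intro z hz
      by_cases hz0 : z = 0
      · rw [hz0, inv_zero]
        exact V.zero_mem
      · have := hinv z hz hz0 1 h1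
        simpa using this
    have hsq : ∀ x ∈ V, x ^ 2 ∈ V := by
      intro x hx
      have := hinv 1 h1 one_ne_zero x hx
      simpa using this
    have hsqmul : ∀ x ∈ V, ∀ y ∈ V, x ^ 2 * y ∈ V := by
      intro x hx y hy
      by_cases hy0 : y = 0
      · rw [hy0, mul_zero]
        exact V.zero_mem
      · have := hinv y⁻¹ (hinv' y hy) (inv_ne_zero hy0) x hx
        simpa [div_eq_mul_inv] using this
    -- every element is a square in `V`
    have hsurj : ∀ w ∈ V, ∃ x ∈ V, x ^ 2 = w := by
      have hinj : Function.Injective (fun x : V => (⟨(x : F) ^ 2, hsq x x.2⟩ : V)) := by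
        intro x y hxy
        have h3 : (x : F) ^ 2 = (y : F) ^ 2 := congrArg Subtype.val hxy
        apply Subtype.ext
        have h4 : ((x : F) + y) ^ 2 = 0 := by
          have h : ((x : F) + y) ^ 2 = (x : F) ^ 2 + (y : F) ^ 2 := add_pow_char (R := F) _ _ 2 |>.trans (by rfl)
          rw [h, h3, add_self']
        have h5 := pow_eq_zero_iff (two_ne_zero) |>.1 h4
        have h6 : (x : F) = (x : F) + ((y : F) + y) := by rw [add_self', add_zero]
        rw [h6, ← add_assoc, h5, zero_add]
      have hbij := Finite.surjective_of_injective hinj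
      intro w hw
      obtain ⟨x, hx⟩ := hbij ⟨w, hw⟩
      exact ⟨x, x.2, congrArg Subtype.val hx⟩
    have hmul : ∀ x ∈ V, ∀ y ∈ V, x * y ∈ V := by
      intro x hx y hy
      obtain ⟨w, hw, rfl⟩ := hsurj x hx
      exact hsqmul w hw y hy
    obtain ⟨c, hc⟩ : ∃ c : F, c ∉ V := by
      by_contra hall
      push Not at hall
      exact hne ((AddSubgroup.eq_top_iff' V).2 hall)
    have hc0 : c ≠ 0 := by
      rintro rfl
      exact hc V.zero_mem
    have hc1 : 1 + c ≠ 0 := by
      intro h
      have h3 : c = 1 := by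
        have h4 : c = c + (1 + 1) := by rw [add_self', add_zero]
        rw [h4, add_comm 1 1, ← add_assoc, add_comm c 1, h, zero_add]
      exact hc (h3 ▸ h1)
    refine ⟨c, 1 + c, 1, c, 1 + c, hc0, hc1, h1, ?_, ?_, ?_, ?_⟩
    · rwa [div_self hc0]
    · rwa [div_self hc1]
    · rw [add_comm 1 c, ← add_assoc, add_self', zero_add]
    · intro a₀ b₀ ha hab hb hz
      have ha0 : a₀ = 0 := by
        by_contra ha0
        apply hc
        have h3 := hmul a₀ ha _ (hinv' _ hab)
        have e : a₀ * (a₀ / c)⁻¹ = c := by field_simp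
        rwa [e] at h3
      rw [ha0, zero_add] at hz
      subst hz
      apply hc
      have h3 := hinv' _ hb
      have e : (1 / (1 + c))⁻¹ = 1 + c := by field_simp
      rw [e] at h3
      have h4 := V.add_mem h1 h3
      rwa [← add_assoc, add_self', zero_add] at h4

end Cfsg.Agent.Lib.SzChar.BinAdd
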