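import Mathlib
import Cfsg.Agent.Lib.SzChar.Ore

/-!
Lower bounds for the number of ways of writing an element as a product of two conjugates.
-/

set_option autoImplicit false
set_option linter.unusedSimpArgs false
set_option linter.unusedSectionVars false
set_option linter.style.haveILetI false

namespace Cfsg.Agent.Lib.SzChar.Ore

open Cfsg Cfsg.Agent.Lib.Suzuki.Core Cfsg.Agent.Lib.Suzuki.Elements
  Cfsg.Agent.Lib.Suzuki.Stab Cfsg.Agent.Lib.Suzuki.Group Cfsg.Agent.Lib.Suzuki.Simple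
  Cfsg.Agent.Lib.Suzuki.Sylow2 Cfsg.Agent.Lib.Suzuki.Count Cfsg.Agent.Lib.SzIso.OutSz
  Cfsg.Agent.Lib.SzIso.SubSz Cfsg.Agent.Lib.Suzuki.Cyc Cfsg.Agent.Lib.Suzuki.CN
  Cfsg.Agent.Lib.SuzukiX.Partition Cfsg.Agent.Lib.SuzukiX.Central Cfsg.Agent.Lib.SzIso.MaxSz
  Cfsg.Agent.Lib.Suzuki.Exc Cfsg.Agent.Lib.Suzuki.TI Cfsg.Agent.Lib.SzIso.SolSz
  Cfsg.Agent.Lib.SzChar.Gen Cfsg.Agent.Lib.Char.Induced Cfsg.Agent.Lib.Char.Ortho
  Cfsg.Agent.Lib.Char.Basic Cfsg.Agent.Lib.Char.Complete Cfsg.Agent.Lib.Char.Degree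
  Cfsg.Agent.Lib.SzChar.Tori Cfsg.Agent.Lib.SzChar.UChar Cfsg.Agent.Lib.SzChar.WChar
  Cfsg.Agent.Lib.SzChar.Table Cfsg.Agent.Lib.SzChar.Degrees Cfsg.Agent.Lib.SzIso.Fix2
  Cfsg.Agent.Lib.SzChar.Values Cfsg.Agent.Lib.SzChar.OreNum
open scoped ComplexConjugate

section Frob

variable {G : Type*} [Group G] [Fintype G] [Fintype (IrrCharacter G)]

/-- The number of ways of writing `g` as a product of two conjugates of `x`, in terms of characters. -/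
theorem card_eq_re (x g : G) :
    (Nat.card {p : G × G // IsConj x p.1 ∧ IsConj x p.2 ∧ p.1 * p.2 = g} : ℝ) =
      (Nat.card G : ℝ) / (Nat.card (Subgroup.centralizer ({x} : Set G)) : ℝ) ^ 2 * (∑ χ, fT x g χ).re := by
  have h1 := Cfsg.Agent.Lib.Char.ClassProd.card_product_eq x x g
  have hC : (Nat.card (Subgroup.centralizer ({x} : Set G)) : ℂ) ≠ 0 :=
    Nat.cast_ne_zero.mpr Nat.card_pos.ne'
  have hG : (Nat.card G : ℂ) ≠ 0 := Nat.cast_ne_zero.mpr Nat.card_pos.ne'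
  have h2 : (Nat.card {y : G // IsConj x y} : ℂ) * (Nat.card (Subgroup.centralizer ({x} : Set G)) : ℂ) =
      (Nat.card G : ℂ) := by
    rw [← Nat.cast_mul, Cfsg.Agent.Lib.Char.ClassSum.card_class_mul_card_centralizer]
  have h3 : (Nat.card {y : G // IsConj x y} : ℂ) * (Nat.card {y : G // IsConj x y} : ℂ) / (Nat.card G : ℂ) =
      (((Nat.card G : ℝ) / (Nat.card (Subgroup.centralizer ({x} : Set G)) : ℝ) ^ 2 : ℝ) : ℂ) := by
    push_cast
    rw [← h2]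
    field_simp
  have h4 := congrArg Complex.re h1
  rw [h3, Complex.re_ofReal_mul, Complex.natCast_re] at h4
  exact h4

end Frob

variable {F : Type*} [Field F] [Fintype F] [CharP F 2] [DecidableEq F] {m : ℕ} {hc : Ctx F m}
  [Fintype (Sz F m)] (D : Dat hc) [Fintype (IrrCharacter (Sz F m))]

/-- The main lower bound, in real form. -/
theorem re_sum_ge {x g : Sz F m} {β M : ℝ}
    (hM : M ≤ (fT x g (oI D) + fT x g (sI D) + fT x g (wI₁ D) + fT x g (wI₂ D)).re)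
    (hrest : ∀ χ ∈ rest D, -(‖(χ : Sz F m → ℂ) x‖ ^ 2 * β) ≤ (fT x g χ).re) :
    M - β * (∑ χ ∈ rest D, ‖(χ : Sz F m → ℂ) x‖ ^ 2) ≤ (∑ χ, fT x g χ).re := by
  rw [sum_split D, Complex.add_re, Complex.re_sum]
  have h2 : -(β * ∑ χ ∈ rest D, ‖(χ : Sz F m → ℂ) x‖ ^ 2) ≤ ∑ χ ∈ rest D, (fT x g χ).re := by
    rw [Finset.mul_sum, ← Finset.sum_neg_distrib]
    apply Finset.sum_le_sum
    intro χ hχ
    have := hrest χ hχ
    rw [mul_comm]
    exact this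
  linarith

variable {D}

/-- The general estimate, in real form. -/
theorem gen_ge {x g : Sz F m} {s2 w2 C s w bX bY bZ β : ℝ} (hx : XI D x s2 w2 C)
    (hg : GI D g s w bX bY bZ)
    (hX : (∀ lam, D.X lam x = 0) ∨ bX ≤ β * ((2 * (dd m) ^ 2) ^ 2 + 1))
    (hY : (∀ lam, D.Y lam x = 0) ∨ bY ≤ β * ((2 * (dd m) ^ 2 - 1) * (2 * (dd m) ^ 2 - 2 * dd m + 1)))
    (hZ : (∀ lam, D.Z lam x = 0) ∨ bZ ≤ β * ((2 * (dd m) ^ 2 - 1) * (2 * (dd m) ^ 2 + 2 * dd m + 1))) :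
    1 + s2 * s / (2 * (dd m) ^ 2) ^ 2 + w2 * w / ((2 * (dd m) ^ 2 - 1) * dd m) - β * C ≤
      (∑ χ, fT x g χ).re := by
  obtain ⟨p1, p2, p3⟩ := pos_facts m (dd_ge hc)
  have h := re_sum_ge D (x := x) (g := g) (β := β)
    (M := 1 + s2 * s / (2 * (dd m) ^ 2) ^ 2 + w2 * w / ((2 * (dd m) ^ 2 - 1) * dd m))
    (by rw [head_eq hx hg, Complex.ofReal_re]) ?_
  · rwa [rest_norm hx] at h
  · intro χ hχ
    rcases rest_cases D hχ with ⟨lam, -, h⟩ | ⟨lam, -, h⟩ | ⟨lam, -, h⟩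
    · refine re_fT_ge p1 (by rw [h, X_one']) ?_
      rw [h]
      rcases hX with hX | hX
      · exact Or.inl (hX lam)
      · exact Or.inr ((hg.bX lam).trans hX)
    · refine re_fT_ge p2 (by rw [h, Y_one']) ?_
      rw [h]
      rcases hY with hY | hY
      · exact Or.inl (hY lam)
      · exact Or.inr ((hg.bY lam).trans hY)
    · refine re_fT_ge p3 (by rw [h, Z_one']) ?_
      rw [h]
      rcases hZ with hZ | hZ
      · exact Or.inl (hZ lam)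
      · exact Or.inr ((hg.bZ lam).trans hZ)

lemma card_G_real (hc : Ctx F m) :
    (Nat.card (Sz F m) : ℝ) = (2 * (dd m) ^ 2) ^ 2 * ((2 * (dd m) ^ 2) ^ 2 + 1) * (2 * (dd m) ^ 2 - 1) := by
  rw [card_Sz hc]
  have h1 : 1 ≤ 2 ^ (2 * m + 1) := Nat.one_le_two_pow
  push_cast [Nat.cast_sub h1]
  ring

omit [DecidableEq F] [Fintype (Sz F m)] [Fintype (IrrCharacter (Sz F m))] in
/-- Elements with two fixed points are real. -/
lemma exists_invert_T (hc : Ctx F m) {x : Sz F m} (hx : IsT x) : ∃ s : Sz F m, s * x * s⁻¹ = x⁻¹ := by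
  obtain ⟨h1, p, p', hne, hp, hp'⟩ := hx
  obtain ⟨s, hs1, hs2⟩ := exists_swap_elem hc hne
  refine ⟨s, ?_⟩
  have hCz := Cz_eq_Tpp hc h1 hne hp hp'
  have hinv1 : s⁻¹ • p = p' := by rw [inv_smul_eq_iff, hs2]
  have hinv2 : s⁻¹ • p' = p := by rw [inv_smul_eq_iff, hs1]
  have hw : s * x * s⁻¹ ∈ Cz x := by
    rw [hCz, mem_Tpp]
    constructor
    · rw [mul_smul, mul_smul, hinv1, hp', hs2]
    · rw [mul_smul, mul_smul, hinv2, hp, hs1]
  have hss : s * s ∈ Cz x := by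
    rw [hCz, mem_Tpp]
    constructor
    · rw [mul_smul, hs1, hs2]
    · rw [mul_smul, hs2, hs1]
  have hcomm1 : x * (s * x * s⁻¹) = (s * x * s⁻¹) * x := mem_Cz.1 hw
  have hcomm2 : x * (s * s) = (s * s) * x := mem_Cz.1 hss
  have h2 : s * (x * (s * x * s⁻¹)) = (x * (s * x * s⁻¹)) * s := by
    have e2 : (s * s) * x * (s * s)⁻¹ = x := by
      rw [← hcomm2]
      group
    calc s * (x * (s * x * s⁻¹)) = (s * x * s⁻¹) * ((s * s) * x * (s * s)⁻¹) * s := by group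
      _ = (s * x * s⁻¹) * x * s := by rw [e2]
      _ = x * (s * x * s⁻¹) * s := by rw [hcomm1]
  by_contra hne2
  have h3 : x * (s * x * s⁻¹) ≠ 1 := by
    intro h4
    apply hne2
    exact eq_inv_of_mul_eq_one_right h4
  have h4 : (x * (s * x * s⁻¹)) • p = p := by
    have hx' : (s * x * s⁻¹) • p = p := (hCz ▸ hw : s * x * s⁻¹ ∈ Tpp p p').1
    rw [mul_smul, hx', hp]
  have h5 := fix_of_commute hc (g := s) h3 h4 h2.symm
  rw [hs1] at h5
  exact hne h5.symm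

omit [DecidableEq F] [Fintype (Sz F m)] [Fintype (IrrCharacter (Sz F m))] in
lemma card_Cz_T (hc : Ctx F m) {x : Sz F m} (hx : IsT x) : (Nat.card (Cz x) : ℝ) = 2 * (dd m) ^ 2 - 1 := by
  obtain ⟨h0, p, p', hne, hp, hp'⟩ := hx
  rw [Cz_eq_Tpp hc h0 hne hp hp', card_Tpp hc hne]
  have h1 : 1 ≤ 2 ^ (2 * m + 1) := Nat.one_le_two_pow
  push_cast [Nat.cast_sub h1]
  ring

variable (D)

include D in
/-- Elements with two fixed points and involutions. -/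
theorem card_T_inv {x g : Sz F m} (hx : IsT x) (hg : IsConj g (zz hc)) :
    (2 * (dd m) ^ 2) ^ 2 * (2 * (dd m) ^ 2 + 1) <
      (Nat.card {p : Sz F m × Sz F m // IsConj x p.1 ∧ IsConj x p.2 ∧ p.1 * p.2 = g} : ℝ) := by
  have hd := dd_ge hc
  obtain ⟨p1, p2, p3⟩ := pos_facts m hd
  have hxi := xi_T D hx
  have hgi := gi_z D hg
  have hY := Y1_of_isConj hg (Y1_zz hc)
  obtain ⟨s, hs⟩ := exists_invert_T hc hx
  have h1 : 1 - 0 * (∑ χ ∈ rest D, ‖(χ : Sz F m → ℂ) x‖ ^ 2) ≤ (∑ χ, fT x g χ).re := by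
    refine re_sum_ge D (by
      rw [head_eq hxi hgi, Complex.ofReal_re]
      simp) ?_
    intro χ hχ
    rw [mul_zero, neg_zero]
    rcases rest_cases D hχ with ⟨lam, -, h⟩ | ⟨lam, -, h⟩ | ⟨lam, -, h⟩
    · have h2 := sq_eq_norm_sq_of_inverted (isCharacter_of_isIrrCharacter χ.2) hs
      have h3 : (χ : Sz F m → ℂ) g = 1 := by
        rw [h, D.X_Y1 lam hY]
      have h4 : (χ : Sz F m → ℂ) 1 = (((2 * (dd m) ^ 2) ^ 2 + 1 : ℝ) : ℂ) := by
        rw [h, X_one']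
      rw [fT, h2, h3, h4, map_one, mul_one, ← Complex.ofReal_div, Complex.ofReal_re]
      positivity
    · simp [fT, h, D.Y_T lam hx]
    · simp [fT, h, D.Z_T lam hx]
  rw [card_eq_re x g, card_G_real hc]
  change _ < _ / (Nat.card (Cz x) : ℝ) ^ 2 * _
  rw [card_Cz_T hc hx]
  have h5 := OreNum.ratio_inv hd
  have h6 : 0 ≤ (2 * dd m ^ 2) ^ 2 * ((2 * dd m ^ 2) ^ 2 + 1) * (2 * dd m ^ 2 - 1) / (2 * dd m ^ 2 - 1) ^ 2 :=
    div_nonneg (mul_nonneg (by positivity) (OreNum.A_pos hd).le) (by positivity)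
  nlinarith

include D in
/-- Elements of order four. -/
theorem card_rho {x : Sz F m} (hx : IsConj x (rh hc) ∨ IsConj x (rh hc)⁻¹) :
    (2 * (dd m) ^ 2) ^ 2 <
      (Nat.card {p : Sz F m × Sz F m // IsConj x p.1 ∧ IsConj x p.2 ∧ p.1 * p.2 = x} : ℝ) := by
  have hd := dd_ge hc
  obtain ⟨p1, p2, p3⟩ := pos_facts m hd
  obtain ⟨hxi, hgi, hcz⟩ : XI D x 0 (-(dd m) ^ 2) (2 * (dd m) ^ 2 - 1) ∧ GI D x 0 0 1 1 1 ∧
      (Nat.card (Cz x) : ℝ) = 2 * (2 * (dd m) ^ 2) := by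
    rcases hx with h | h
    · refine ⟨xi_rho D h, gi_rho D (Y1_of_isConj h (Y1_rh hc)) (ws_rh D h), ?_⟩
      rw [← card_Cz_of_isConj hc h, card_Cz_rh hc]
      push_cast
      ring
    · refine ⟨xi_rho_inv D h, gi_rho D (Y1_of_isConj h (Y1_rh_inv hc)) (ws_rh_inv D h), ?_⟩
      rw [← card_Cz_of_isConj hc h, Cz_inv, card_Cz_rh hc]
      push_cast
      ring
  have h1 := gen_ge (β := 1 / ((2 * (dd m) ^ 2 - 1) * (2 * (dd m) ^ 2 - 2 * dd m + 1))) hxi hgi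
    (Or.inr (dm_le zero_le_one p2 (OreNum.PY_le_PX hd))) (Or.inr (dm_self p2))
    (Or.inr (dm_le zero_le_one p2 (OreNum.PY_le_PZ hd)))
  have h2 := OreNum.M_rho hd
  rw [card_eq_re x x, card_G_real hc]
  change _ < _ / (Nat.card (Cz x) : ℝ) ^ 2 * _
  rw [hcz]
  have h5 := OreNum.ratio_rho hd
  have h6 : 0 ≤ (2 * dd m ^ 2) ^ 2 * ((2 * dd m ^ 2) ^ 2 + 1) * (2 * dd m ^ 2 - 1) / (2 * (2 * dd m ^ 2)) ^ 2 :=
    div_nonneg (mul_nonneg (by positivity) (OreNum.A_pos hd).le) (by positivity)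
  have h7 : (4 / 5 : ℝ) ≤ (∑ χ, fT x x χ).re := h2.trans h1
  calc _ < _ := h5
    _ ≤ _ := mul_le_mul_of_nonneg_left h7 h6

include D in
/-- Elements of odd order. -/
theorem card_odd {x : Sz F m} (hx : x ≠ 1) (hodd : Odd (orderOf x)) :
    (5 : ℝ) ≤ (Nat.card {p : Sz F m × Sz F m // IsConj x p.1 ∧ IsConj x p.2 ∧ p.1 * p.2 = x} : ℝ) := by
  have hd := dd_ge hc
  obtain ⟨p1, p2, p3⟩ := pos_facts m hd
  rw [card_eq_re x x, card_G_real hc]
  change _ ≤ _ / (Nat.card (Cz x) : ℝ) ^ 2 * _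
  rcases cases_of_ne_one D hx with h | h | h | h | h | h
  · exfalso
    obtain ⟨c, hc'⟩ := isConj_iff.mp h
    have h1 : orderOf x = orderOf (zz hc) := by rw [← hc', ord_conj]
    have h2 : orderOf (zz hc) ∣ 2 := orderOf_dvd_of_pow_eq_one (by rw [pow_two]; exact (isInv_zz hc).2)
    have h3 : orderOf x = 1 := by
      rw [← h1] at h2
      have := (Nat.Coprime.eq_one_of_dvd (Nat.Coprime.symm (Nat.coprime_two_left.2 hodd)) h2)
      exact this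
    exact hx (orderOf_eq_one_iff.1 h3)
  · exfalso
    have h1 : orderOf x = 4 := by
      obtain ⟨c, hc'⟩ := isConj_iff.mp h
      rw [← ord_conj c x, hc', orderOf_uS_one]
    rw [h1] at hodd
    exact absurd hodd (by decide)
  · exfalso
    have h1 : orderOf x = 4 := by
      obtain ⟨c, hc'⟩ := isConj_iff.mp h
      rw [← ord_conj c x, hc', orderOf_inv, orderOf_uS_one]
    rw [h1] at hodd
    exact absurd hodd (by decide)
  · have h1 := gen_ge (β := 2 / ((2 * (dd m) ^ 2) ^ 2 + 1)) (xi_T D h) (gi_T D h)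
      (Or.inr (dm_self p1)) (Or.inl fun lam => D.Y_T lam h) (Or.inl fun lam => D.Z_T lam h)
    have h2 := (OreNum.M_T_half hd).trans h1
    rw [card_Cz_T hc h]
    have h5 := OreNum.ratio_T hd
    have h6 : 0 ≤ (2 * dd m ^ 2) ^ 2 * ((2 * dd m ^ 2) ^ 2 + 1) * (2 * dd m ^ 2 - 1) / (2 * dd m ^ 2 - 1) ^ 2 :=
      div_nonneg (mul_nonneg (by positivity) (OreNum.A_pos hd).le) (by positivity)
    exact h5.trans (mul_le_mul_of_nonneg_left h2 h6)
  · have h1 := gen_ge (β := 4 / ((2 * (dd m) ^ 2 - 1) * (2 * (dd m) ^ 2 - 2 * dd m + 1))) (xi_X₁ D h) (gi_X₁ D h)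
      (Or.inl fun lam => D.X_fpf lam (D.fpf₁ h)) (Or.inr (dm_self p2)) (Or.inl fun lam => D.Z_X₁ lam h)
    have h2 := (OreNum.M_A_small hd).trans h1
    have hcz : (Nat.card (Cz x) : ℝ) = 2 * (dd m) ^ 2 + 2 * dd m + 1 := by
      rw [card_Cz_conj hc D.ht.h₁ h, D.ht.c₁]
      push_cast
      ring
    rw [hcz]
    have h5 := OreNum.ratio_A hd
    have h6 : 0 ≤ (2 * dd m ^ 2) ^ 2 * ((2 * dd m ^ 2) ^ 2 + 1) * (2 * dd m ^ 2 - 1) / (2 * dd m ^ 2 + 2 * dd m + 1) ^ 2 :=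
      div_nonneg (mul_nonneg (by positivity) (OreNum.A_pos hd).le) (by positivity)
    have h7 := mul_le_mul_of_nonneg_left h2 h6
    have h8 : (100 : ℝ) * (1 / 20) ≤ _ * (1 / 20 : ℝ) := mul_le_mul_of_nonneg_right h5 (by norm_num)
    norm_num at h8
    linarith
  · have h1 := gen_ge (β := 4 / ((2 * (dd m) ^ 2 - 1) * (2 * (dd m) ^ 2 + 2 * dd m + 1))) (xi_X₂ D h) (gi_X₂ D h)
      (Or.inl fun lam => D.X_fpf lam (D.fpf₂ h)) (Or.inl fun lam => D.Y_X₂ lam h) (Or.inr (dm_self p3))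
    have h2 := (OreNum.M_B_quarter hd).trans h1
    have hcz : (Nat.card (Cz x) : ℝ) = 2 * (dd m) ^ 2 - 2 * dd m + 1 := by
      rw [card_Cz_conj hc D.ht.h₂ h, D.ht.c₂]
      have h2 : 2 ^ (m + 1) ≤ 2 ^ (2 * m + 1) := Nat.pow_le_pow_right (by norm_num) (by omega)
      push_cast [Nat.cast_sub h2]
      ring
    rw [hcz]
    have h5 := OreNum.ratio_B hd
    have h6 : 0 ≤ (2 * dd m ^ 2) ^ 2 * ((2 * dd m ^ 2) ^ 2 + 1) * (2 * dd m ^ 2 - 1) / (2 * dd m ^ 2 - 2 * dd m + 1) ^ 2 :=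
      div_nonneg (mul_nonneg (by positivity) (OreNum.A_pos hd).le) (by positivity)
    have h7 := mul_le_mul_of_nonneg_left h2 h6
    have h8 : (20 : ℝ) * (1 / 4) ≤ _ * (1 / 4 : ℝ) := mul_le_mul_of_nonneg_right h5 (by norm_num)
    norm_num at h8
    linarith

end Cfsg.Agent.Lib.SzChar.Ore

namespace Cfsg.Agent.Lib.SzChar.Ore

open Cfsg Cfsg.Agent.Lib.Suzuki.Stab Cfsg.Agent.Lib.SzChar.Table Cfsg.Agent.Lib.Char.Ortho
  Cfsg.Agent.Lib.SzChar.Tori Cfsg.Agent.Lib.SzIso.SolSz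

variable {F : Type*} [Field F] [Fintype F] [CharP F 2] {m : ℕ} (hc : Ctx F m)

theorem card_T_inv' {x g : Sz F m} (hx : IsT x) (hg : IsConj g (zz hc)) :
    (2 * (dd m) ^ 2) ^ 2 * (2 * (dd m) ^ 2 + 1) <
      (Nat.card {p : Sz F m × Sz F m // IsConj x p.1 ∧ IsConj x p.2 ∧ p.1 * p.2 = g} : ℝ) := by
  classical
  letI : Fintype (Sz F m) := Fintype.ofFinite _
  obtain ⟨D⟩ := exists_Dat hc
  have := finite_irrCharacter (G := Sz F m)
  letI : Fintype (IrrCharacter (Sz F m)) := Fintype.ofFinite _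
  exact card_T_inv D hx hg

theorem card_rho' {x : Sz F m} (hx : IsConj x (rh hc) ∨ IsConj x (rh hc)⁻¹) :
    (2 * (dd m) ^ 2) ^ 2 <
      (Nat.card {p : Sz F m × Sz F m // IsConj x p.1 ∧ IsConj x p.2 ∧ p.1 * p.2 = x} : ℝ) := by
  classical
  letI : Fintype (Sz F m) := Fintype.ofFinite _
  obtain ⟨D⟩ := exists_Dat hc
  have := finite_irrCharacter (G := Sz F m)
  letI : Fintype (IrrCharacter (Sz F m)) := Fintype.ofFinite _
  exact card_rho D hx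

include hc in
theorem card_odd' {x : Sz F m} (hx : x ≠ 1) (hodd : Odd (orderOf x)) :
    (5 : ℝ) ≤ (Nat.card {p : Sz F m × Sz F m // IsConj x p.1 ∧ IsConj x p.2 ∧ p.1 * p.2 = x} : ℝ) := by
  classical
  letI : Fintype (Sz F m) := Fintype.ofFinite _
  obtain ⟨D⟩ := exists_Dat hc
  have := finite_irrCharacter (G := Sz F m)
  letI : Fintype (IrrCharacter (Sz F m)) := Fintype.ofFinite _
  exact card_odd D hx hodd

end Cfsg.Agent.Lib.SzChar.Ore
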