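import Mathlib
import Cfsg.Agent.Lib.SzChar.OreCount
import Cfsg.Agent.Lib.SzChar.BinAbs

/-!
Binary coset actions of the Suzuki groups: the subgroups giving binary actions, and the subgroups of
odd order.
-/

set_option autoImplicit false
set_option linter.unusedSimpArgs false
set_option linter.unusedSectionVars false
set_option linter.style.haveILetI false

namespace Cfsg.Agent.Lib.SzChar.Binary

open Cfsg Cfsg.Agent.Lib.Suzuki.Core Cfsg.Agent.Lib.Suzuki.Elements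
  Cfsg.Agent.Lib.Suzuki.Stab Cfsg.Agent.Lib.Suzuki.Group Cfsg.Agent.Lib.Suzuki.Simple
  Cfsg.Agent.Lib.Suzuki.Sylow2 Cfsg.Agent.Lib.Suzuki.Count Cfsg.Agent.Lib.SzIso.OutSz
  Cfsg.Agent.Lib.SzIso.SubSz Cfsg.Agent.Lib.Suzuki.Cyc Cfsg.Agent.Lib.Suzuki.CN
  Cfsg.Agent.Lib.SuzukiX.Partition Cfsg.Agent.Lib.SuzukiX.Central Cfsg.Agent.Lib.SzIso.MaxSz
  Cfsg.Agent.Lib.Suzuki.Exc Cfsg.Agent.Lib.Suzuki.TI Cfsg.Agent.Lib.SzIso.SolSz
  Cfsg.Agent.Lib.SzChar.Tori Cfsg.Agent.Lib.SzChar.Table Cfsg.Agent.Lib.SzIso.Fix2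
  Cfsg.Agent.Lib.SzChar.Ore Cfsg.Agent.Lib.SzChar.BinAbs Cfsg.Agent.Lib.SzChar.Values

section Gen

variable {G : Type*} [Group G] {H : Subgroup G}

lemma ord_conj' (t y : G) : orderOf (t * y * t⁻¹) = orderOf y := by
  have := orderOf_injective (MulAut.conj t).toMonoidHom (MulAut.conj t).injective y
  simpa using this

lemma MC_one {y : G} : MC H 1 y ↔ y ∈ H := by
  simp [MC]

lemma MC_conj_self {u x : G} (hx : x ∈ H) : MC H u (u * x * u⁻¹) := by
  have e : u⁻¹ * (u * x * u⁻¹) * u = x := by group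
  simpa [MC, e] using hx

end Gen

variable {F : Type*} [Field F] [Fintype F] [CharP F 2] {m : ℕ} (hc : Ctx F m)

/-! ### The centre of the Sylow subgroup -/

/-- The centre of `U`, as a subgroup of the Suzuki group. -/
noncomputable def ZZ : Subgroup (Sz F m) := (Subgroup.center (Usub hc)).map (Usub hc).subtype

lemma mem_ZZ {g : Sz F m} : g ∈ ZZ hc ↔ ∃ b : F, g = uS hc 0 b := by
  rw [ZZ, center_eq_Zsub]
  constructor
  · rintro ⟨y, ⟨b, hb⟩, rfl⟩
    exact ⟨b, hb⟩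
  · rintro ⟨b, rfl⟩
    exact ⟨⟨uS hc 0 b, uS_mem hc _ _⟩, ⟨b, rfl⟩, rfl⟩

lemma mem_ZZ_iff {g : Sz F m} : g ∈ ZZ hc ↔ g = 1 ∨ (IsInv g ∧ g • (infO : OO F m) = infO) := by
  rw [mem_ZZ]
  constructor
  · rintro ⟨b, rfl⟩
    by_cases hb : b = 0
    · left
      rw [hb, uS_zero]
    · exact Or.inr ⟨isInv_uS_zero hc hb, uS_zero_smul_inf hc b⟩
  · rintro (rfl | ⟨h1, h2⟩)
    · exact ⟨0, (uS_zero hc).symm⟩
    · obtain ⟨b, -, hb⟩ := inv_at_inf hc h1 h2
      exact ⟨b, hb⟩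

lemma MC_ZZ {g y : Sz F m} : MC (ZZ hc) g y ↔ y = 1 ∨ (IsInv y ∧ y • (g • (infO : OO F m)) = g • infO) := by
  rw [MC, mem_ZZ_iff]
  have e1 : g⁻¹ * y * g = 1 ↔ y = 1 := by
    constructor
    · intro h
      have e : y = g * (g⁻¹ * y * g) * g⁻¹ := by group
      rw [e, h]
      group
    · rintro rfl
      group
  have e2 : IsInv (g⁻¹ * y * g) ↔ IsInv y := by
    constructor
    · intro h
      have e : y = g * (g⁻¹ * y * g) * g⁻¹ := by group
      rw [e]
      exact h.conj g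
    · intro h
      have := h.conj g⁻¹
      simpa using this
  have e3 : (g⁻¹ * y * g) • (infO : OO F m) = infO ↔ y • (g • (infO : OO F m)) = g • infO := by
    rw [mul_smul, mul_smul, inv_smul_eq_iff]
  rw [e1, e2, e3]

theorem star_ZZ_conj (t : Sz F m) : StarC ((ZZ hc).map (MulAut.conj t).toMonoidHom) := by
  intro x y w h₁ h₂ hx hy hw h₁1 h₂1 c
  rw [MC_map_conj, MC_ZZ] at hx hy hw
  rw [MC_map_conj, MC_map_conj, MC_ZZ, MC_ZZ]
  have hx' := hx.resolve_left h₁1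
  have hy' := hy.resolve_left h₂1
  have key : (x * t) • (infO : OO F m) = (y * t) • infO := by
    rcases hw with h | ⟨hs, -⟩
    · have h3 : h₁ = h₂ := (inv_mul_eq_one.1 h).symm
      subst h3
      exact fix_unique hc hx'.1 hx'.2 hy'.2
    · -- commuting involutions
      have h3 : h₂ * h₁ = h₁ * h₂ := by
        have h4 := hs.2
        rw [hy'.1.inv_eq] at h4
        have h5 : h₂ * h₁ * (h₂ * h₁) = 1 := h4
        have h6 : h₂ * h₁ = (h₂ * h₁)⁻¹ := eq_inv_of_mul_eq_one_left h5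
        rw [h6, mul_inv_rev, hx'.1.inv_eq, hy'.1.inv_eq]
      have h4 : h₂ • (h₁ • ((y * t) • (infO : OO F m))) = h₁ • ((y * t) • infO) := by
        rw [← mul_smul, h3, mul_smul, hy'.2]
      have h5 := fix_unique hc hy'.1 h4 hy'.2
      exact fix_unique hc hx'.1 hx'.2 h5
  rw [key]

theorem star_bot : StarC (⊥ : Subgroup (Sz F m)) := by
  intro x y w h₁ h₂ hx hy hw h₁1 h₂1 c
  exfalso
  apply h₁1
  have h : x⁻¹ * h₁ * x = 1 := hx
  have e : h₁ = x * (x⁻¹ * h₁ * x) * x⁻¹ := by group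
  rw [e, h]
  group

/-! ### Normalizers -/

include hc in
lemma odd_cases {x : Sz F m} (hx : x ≠ 1) (hodd : Odd (orderOf x)) : IsT x ∨ IsFPF x := by
  rcases trichotomy hx with h | h | h
  · exfalso
    have h1 := Y1_two_power hc h
    have h2 : orderOf x ∣ 4 := orderOf_dvd_of_pow_eq_one h1
    have h3 : orderOf x = 1 := Nat.Coprime.eq_one_of_dvd
      (Nat.Coprime.pow_right 2 (Nat.coprime_two_right.2 hodd) : Nat.Coprime (orderOf x) (2 ^ 2)) (by simpa using h2)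
    exact hx (orderOf_eq_one_iff.1 h3)
  · exact Or.inl h
  · exact Or.inr h

include hc in
lemma card_NN_le {x : Sz F m} (hx : x ≠ 1) (hodd : Odd (orderOf x)) :
    Nat.card (NN x) ≤ 4 * Nat.card (Cz x) := by
  classical
  letI : Fintype (Sz F m) := Fintype.ofFinite _
  rcases odd_cases hc hx hodd with h | h
  · rw [card_NN_T hc h]
    omega
  · rw [card_NN_fpf hc h]

include hc in
lemma mem_NN_of_conj_mem_Cz {x u : Sz F m} (hx : x ≠ 1) (hodd : Odd (orderOf x)) (h : u * x * u⁻¹ ∈ Cz x) :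
    u ∈ NN x := by
  have hG := good_of_odd hc hx hodd
  have hne : u * x * u⁻¹ ≠ 1 := by
    intro h1
    apply hx
    have e : x = u⁻¹ * (u * x * u⁻¹) * u := by group
    rw [e, h1]
    group
  have h1 := hG.eq _ h hne
  rw [Subgroup.mem_normalizer_iff]
  intro c
  have h2 := conj_mem_Cz hc (g := x) (c := c) (t := u)
  rw [h1] at h2
  exact h2.symm

include hc in
/-- A subgroup of the normalizer meeting the centraliser trivially has order at most four. -/
lemma card_le_four {x : Sz F m} (hx : x ≠ 1) (hodd : Odd (orderOf x)) {K : Subgroup (Sz F m)}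
    (hK : K ≤ NN x) (hKC : ∀ y ∈ K, y ∈ Cz x → y = 1) : Nat.card K ≤ 4 := by
  have hinj : Function.Injective (fun p : K × Cz x => (⟨(p.1 : Sz F m) * (p.2 : Sz F m),
      (NN x).mul_mem (hK p.1.2) (Subgroup.le_normalizer p.2.2)⟩ : NN x)) := by
    rintro ⟨⟨k, hk⟩, ⟨c, hc'⟩⟩ ⟨⟨k', hk'⟩, ⟨c', hc''⟩⟩ h
    have h1 : k * c = k' * c' := congrArg Subtype.val h
    have h2 : k'⁻¹ * k = c' * c⁻¹ := by
      rw [inv_mul_eq_iff_eq_mul, ← mul_assoc, ← h1]
      group
    have h3 : k'⁻¹ * k = 1 := hKC _ (K.mul_mem (K.inv_mem hk') hk) (by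
      rw [h2]
      exact (Cz x).mul_mem hc'' ((Cz x).inv_mem hc'))
    have h4 : k = k' := (inv_mul_eq_one.1 h3).symm
    subst h4
    have h5 : c = c' := mul_left_cancel h1
    subst h5
    rfl
  have h1 := Nat.card_le_card_of_injective _ hinj
  rw [Nat.card_prod] at h1
  have h2 := card_NN_le hc hx hodd
  have h3 : 0 < Nat.card (Cz x) := Nat.card_pos
  nlinarith

include hc in
/-- The number of conjugates of `x` in its centraliser. -/
lemma card_inside {x : Sz F m} (hx : x ≠ 1) (hodd : Odd (orderOf x)) :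
    Nat.card {y : Sz F m // IsConj x y ∧ y ∈ Cz x} ≤ 4 := by
  have hex : ∀ y : {y : Sz F m // IsConj x y ∧ y ∈ Cz x}, ∃ u : Sz F m, u * x * u⁻¹ = y := fun y =>
    isConj_iff.1 y.2.1
  choose u hu using hex
  have hN : ∀ y, u y ∈ NN x := fun y => mem_NN_of_conj_mem_Cz hc hx hodd (by rw [hu]; exact y.2.2)
  have hinj : Function.Injective (fun p : {y : Sz F m // IsConj x y ∧ y ∈ Cz x} × Cz x =>
      (⟨u p.1 * (p.2 : Sz F m), (NN x).mul_mem (hN p.1) (Subgroup.le_normalizer p.2.2)⟩ : NN x)) := by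
    rintro ⟨y, ⟨c, hc'⟩⟩ ⟨y', ⟨c', hc''⟩⟩ h
    have h1 : u y * c = u y' * c' := congrArg Subtype.val h
    have hcx : c * x = x * c := (mem_Cz.1 hc').symm
    have hcx' : c' * x = x * c' := (mem_Cz.1 hc'').symm
    have h2 : (y : Sz F m) = y' := by
      rw [← hu y, ← hu y']
      have e1 : u y = u y' * c' * c⁻¹ := by rw [← h1]; group
      rw [e1]
      have e2 : u y' * c' * c⁻¹ * x * (u y' * c' * c⁻¹)⁻¹ =
          u y' * (c' * (c⁻¹ * x * c) * c'⁻¹) * (u y')⁻¹ := by group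
      have e3 : c⁻¹ * x * c = x := by
        rw [mul_assoc, ← hcx]
        group
      have e4 : c' * x * c'⁻¹ = x := by
        rw [hcx']
        group
      rw [e2, e3, e4]
    have h3 : y = y' := Subtype.ext h2
    subst h3
    have h5 : c = c' := mul_left_cancel h1
    subst h5
    rfl
  have h1 := Nat.card_le_card_of_injective _ hinj
  rw [Nat.card_prod] at h1
  have h2 := card_NN_le hc hx hodd
  have h3 : 0 < Nat.card (Cz x) := Nat.card_pos
  nlinarith

/-! ### Subgroups of odd order -/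

include hc in
theorem wit_odd {H : Subgroup (Sz F m)} (hodd : Odd (Nat.card H)) (hbot : H ≠ ⊥) : Wit H := by
  obtain ⟨⟨x, hx⟩, hx1'⟩ := Subgroup.ne_bot_iff_exists_ne_one.1 hbot
  have hx1 : x ≠ 1 := fun h => hx1' (Subtype.ext h)
  have hox : Odd (orderOf x) := Odd.of_dvd_nat hodd (Subgroup.orderOf_dvd_natCard H hx)
  have hle := odd_le_Cz hc hodd hx hx1
  have hG := good_of_odd hc hx1 hox
  obtain ⟨x₁, x₂, h1, h2, h12, hout⟩ : ∃ x₁ x₂ : Sz F m, IsConj x x₁ ∧ IsConj x x₂ ∧ x₁ * x₂ = x ∧ x₁ ∉ Cz x := by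
    by_contra hno
    push Not at hno
    have hcard := card_odd' hc hx1 hox
    have h3 : Nat.card {p : Sz F m × Sz F m // IsConj x p.1 ∧ IsConj x p.2 ∧ p.1 * p.2 = x} ≤
        Nat.card {y : Sz F m // IsConj x y ∧ y ∈ Cz x} :=
      Nat.card_le_card_of_injective
        (fun p => ⟨p.1.1, p.2.1, hno _ _ p.2.1 p.2.2.1 p.2.2.2⟩) (by
        rintro ⟨⟨a, b⟩, h1, h2, h3⟩ ⟨⟨a', b'⟩, h1', h2', h3'⟩ h
        have h4 : a = a' := congrArg Subtype.val h
        subst h4
        have h5 : b = b' := mul_left_cancel (h3.trans h3'.symm)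
        subst h5
        rfl)
    have h4 := card_inside hc hx1 hox
    have h5 : (Nat.card {p : Sz F m × Sz F m // IsConj x p.1 ∧ IsConj x p.2 ∧ p.1 * p.2 = x} : ℝ) ≤ 4 := by
      exact_mod_cast h3.trans h4
    linarith
  obtain ⟨u, rfl⟩ := isConj_iff.1 h1
  obtain ⟨v, rfl⟩ := isConj_iff.1 h2
  refine ⟨1, u, v, x, _, _, MC_one.2 hx, MC_conj_self hx, MC_conj_self hx, h12.symm, ?_⟩
  intro a b ha hb hb' hab
  have ha' : a ∈ H := MC_one.1 ha
  have ha3 : a ∈ Cz x := hle ha'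
  have hx₁1 : u * x * u⁻¹ ≠ 1 := by
    intro h
    apply hx1
    have e : x = u⁻¹ * (u * x * u⁻¹) * u := by group
    rw [e, h]
    group
  have hx₂1 : v * x * v⁻¹ ≠ 1 := by
    intro h
    apply hx1
    have e : x = v⁻¹ * (v * x * v⁻¹) * v := by group
    rw [e, h]
    group
  have hox₁ : Odd (orderOf (u * x * u⁻¹)) := by rwa [ord_conj']
  have hox₂ : Odd (orderOf (v * x * v⁻¹)) := by rwa [ord_conj']
  have hG₁ := good_of_odd hc hx₁1 hox₁
  have hG₂ := good_of_odd hc hx₂1 hox₂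
  have hconj : ∀ {w y : Sz F m}, MC H w y → y ∈ Cz (w * x * w⁻¹) := by
    intro w y hy
    have h1 : w⁻¹ * y * w ∈ Cz x := hle hy
    have h2 := (conj_mem_Cz hc (g := x) (c := w⁻¹ * y * w) (t := w)).2 h1
    have e : w * (w⁻¹ * y * w) * w⁻¹ = y := by group
    rwa [e] at h2
  have ha4 := hconj hb
  by_cases ha1 : a = 1
  · subst ha1
    rw [one_mul] at hab
    subst hab
    have hb3 := hconj hb'
    have h3 := hG₂.eq _ hb3 hx1
    apply hout
    have h4 : v * x * v⁻¹ ∈ Cz x := by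
      rw [h3]
      exact self_mem_Cz _
    have e : u * x * u⁻¹ = x * (v * x * v⁻¹)⁻¹ := by
      rw [eq_mul_inv_iff_mul_eq]
      exact h12
    rw [e]
    exact (Cz x).mul_mem (self_mem_Cz x) ((Cz x).inv_mem h4)
  · have h3 := hG.eq a ha3 ha1
    have h4 := hG₁.eq a ha4 ha1
    apply hout
    rw [← h3, h4]
    exact self_mem_Cz _

end Cfsg.Agent.Lib.SzChar.Binary
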