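import Mathlib
import Cfsg.Agent.Lib.SzChar.BinBasic
import Cfsg.Agent.Lib.SzChar.BinAdd

/-!
Binary coset actions of the Suzuki groups: subgroups of the Sylow 2-subgroup `U`.
-/

set_option autoImplicit false
set_option linter.unusedSimpArgs false
set_option linter.unusedSectionVars false
set_option linter.style.haveILetI false

namespace Cfsg.Agent.Lib.SzChar.Binary

open Cfsg Cfsg.Agent.Lib.Suzuki.Core Cfsg.Agent.Lib.Suzuki.Elements
  Cfsg.Agent.Lib.Suzuki.Stab Cfsg.Agent.Lib.Suzuki.Group Cfsg.Agent.Lib.Suzuki.Simple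
  Cfsg.Agent.Lib.Suzuki.Sylow2 Cfsg.Agent.Lib.Suzuki.Count Cfsg.Agent.Lib.SzIso.OutSz
  Cfsg.Agent.Lib.SzIso.SubSz Cfsg.Agent.Lib.Suzuki.Cyc Cfsg.Agent.Lib.Suzuki.CN
  Cfsg.Agent.Lib.SuzukiX.Partition Cfsg.Agent.Lib.SuzukiX.Central Cfsg.Agent.Lib.SzIso.MaxSz
  Cfsg.Agent.Lib.Suzuki.Exc Cfsg.Agent.Lib.Suzuki.TI Cfsg.Agent.Lib.SzIso.SolSz
  Cfsg.Agent.Lib.SzChar.Tori Cfsg.Agent.Lib.SzChar.Table Cfsg.Agent.Lib.SzIso.Fix2
  Cfsg.Agent.Lib.SzChar.Ore Cfsg.Agent.Lib.SzChar.BinAbs Cfsg.Agent.Lib.SzChar.Values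

variable {F : Type*} [Field F] [Fintype F] [CharP F 2] {m : ℕ} (hc : Ctx F m)

/-- `2 * dd m ^ 2` is the order of the field. -/
lemma two_dd_sq (m : ℕ) : 2 * (dd m) ^ 2 = ((2 ^ (2 * m + 1) : ℕ) : ℝ) := by
  simp only [dd]
  push_cast
  ring

/-- Subgroups of `U` containing an element of order four. -/
theorem wit_two {H : Subgroup (Sz F m)} (hU : H ≤ Usub hc) {x : Sz F m} (hx : x ∈ H) (hxx : x * x ≠ 1) :
    Wit H := by
  have hxU := hU hx
  obtain ⟨a, b, rfl⟩ := (mem_Usub hc).1 hxU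
  set x := uS hc a b with hxdef
  have hord : orderOf x = 4 := by
    have h := orderOf_eq_prime_pow (p := 2) (n := 1) (x := x) (by
      simpa [pow_two] using hxx) (by
      have := uS_pow_four hc a b
      simpa using this)
    simpa using h
  have hx1 : x ≠ 1 := by
    rintro h
    apply hxx
    rw [h, one_mul]
  have hconj : IsConj x (rh hc) ∨ IsConj x (rh hc)⁻¹ := by
    rcases exists_conj_rh hc hord with ⟨g, hg⟩ | ⟨g, hg⟩
    · exact Or.inl (isConj_iff.2 ⟨g, hg⟩)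
    · exact Or.inr (isConj_iff.2 ⟨g, hg⟩)
  have hN := card_rho' hc hconj
  obtain ⟨x₁, x₂, h1, h2, h12, hout⟩ : ∃ x₁ x₂ : Sz F m, IsConj x x₁ ∧ IsConj x x₂ ∧ x₁ * x₂ = x ∧ x₁ ∉ Usub hc := by
    by_contra hno
    push Not at hno
    have h3 : Nat.card {p : Sz F m × Sz F m // IsConj x p.1 ∧ IsConj x p.2 ∧ p.1 * p.2 = x} ≤
        Nat.card (Usub hc) :=
      Nat.card_le_card_of_injective
        (fun p => ⟨p.1.1, hno _ _ p.2.1 p.2.2.1 p.2.2.2⟩) (by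
        rintro ⟨⟨a, b⟩, h1, h2, h3⟩ ⟨⟨a', b'⟩, h1', h2', h3'⟩ h
        have h4 : a = a' := congrArg Subtype.val h
        subst h4
        have h5 : b = b' := mul_left_cancel (h3.trans h3'.symm)
        subst h5
        rfl)
    rw [card_Usub hc] at h3
    have h4 : (Nat.card {p : Sz F m × Sz F m // IsConj x p.1 ∧ IsConj x p.2 ∧ p.1 * p.2 = x} : ℝ) ≤
        (((2 ^ (2 * m + 1) : ℕ) ^ 2 : ℕ) : ℝ) := by exact_mod_cast h3
    rw [two_dd_sq] at hN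
    push_cast at h4 hN
    linarith
  obtain ⟨u, rfl⟩ := isConj_iff.1 h1
  obtain ⟨v, rfl⟩ := isConj_iff.1 h2
  refine ⟨1, u, v, x, _, _, MC_one.2 hx, MC_conj_self hx, MC_conj_self hx, h12.symm, ?_⟩
  intro c d hc1 hc2 hd hab
  have hcU : c ∈ Usub hc := hU (MC_one.1 hc1)
  have hfixc : c • (u • (infO : OO F m)) = u • infO := by
    have h3 : u⁻¹ * c * u ∈ Usub hc := hU hc2
    have h4 := smul_infO_of_mem hc h3
    rw [mul_smul, mul_smul, inv_smul_eq_iff] at h4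
    exact h4
  have hune : u • (infO : OO F m) ≠ infO := by
    intro h
    apply hout
    have h3 : u • suzukiPointInfinity F = suzukiPointInfinity F := congrArg Subtype.val h
    exact conj_mem_Usub_of_fix hc h3 hxU
  have hc1' : c = 1 := by
    by_contra hne
    exact hune (fix_Usub hc hcU hne hfixc)
  subst hc1'
  rw [one_mul] at hab
  subst hab
  have hfixd : x • (v • (infO : OO F m)) = v • infO := by
    have h3 : v⁻¹ * x * v ∈ Usub hc := hU hd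
    have h4 := smul_infO_of_mem hc h3
    rw [mul_smul, mul_smul, inv_smul_eq_iff] at h4
    exact h4
  have hv := fix_Usub hc hxU hx1 hfixd
  have hv' : v • suzukiPointInfinity F = suzukiPointInfinity F := congrArg Subtype.val hv
  have h5 : v * x * v⁻¹ ∈ Usub hc := conj_mem_Usub_of_fix hc hv' hxU
  apply hout
  have e : u * x * u⁻¹ = x * (v * x * v⁻¹)⁻¹ := by
    rw [eq_mul_inv_iff_mul_eq]
    exact h12
  rw [e]
  exact (Usub hc).mul_mem hxU ((Usub hc).inv_mem h5)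

lemma conj_inv_hS (ν : Fˣ) (y : F) :
    (hS hc ν)⁻¹ * uS hc 0 y * hS hc ν = uS hc 0 (y / ((ν : F) * th m (ν : F))) := by
  have h := hS_conj_uS hc ν⁻¹ 0 y
  rw [hS_inv hc ν⁻¹, inv_inv] at h
  rw [hS_inv hc ν, h]
  congr 1
  · simp
  · have h1 := th_inv m (ν : F)
    have hν : (ν : F) ≠ 0 := ν.ne_zero
    have hθ : th m (ν : F) ≠ 0 := th_ne_zero m hν
    rw [Units.val_inv_eq_inv_val, h1]
    field_simp

lemma conj_hS_zero (ν : Fˣ) (y : F) :
    hS hc ν * uS hc 0 y * (hS hc ν)⁻¹ = uS hc 0 ((ν : F) * th m (ν : F) * y) := by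
  have h := hS_conj_uS hc ν 0 y
  rw [mul_zero] at h
  exact h

/-- The core of the case of subgroups of the centre. -/
theorem wit_elem_core {H : Subgroup (Sz F m)} (hZ : H ≤ ZZ hc) (h1 : uS hc 0 1 ∈ H)
    (hne : ∃ b : F, uS hc 0 b ∉ H) : Wit H := by
  have hV1 : (1 : F) ∈ BB hc H := (mem_BB hc).2 h1
  have hVne : BB hc H ≠ ⊤ := by
    intro h
    obtain ⟨b, hb⟩ := hne
    apply hb
    have : b ∈ BB hc H := h ▸ AddSubgroup.mem_top b
    exact (mem_BB hc).1 this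
  obtain ⟨c₂, c₃, z₀, w₀, v₀, hc₂, hc₃, hz, hw, hv, hzwv, hno⟩ :=
    Cfsg.Agent.Lib.SzChar.BinAdd.additive_main (BB hc H) hV1 hVne
  obtain ⟨ν₂, hν₂⟩ := exists_unit hc hc₂
  obtain ⟨ν₃, hν₃⟩ := exists_unit hc hc₃
  have hMC : ∀ (ν : Fˣ) (y : F), MC H (hS hc ν) (uS hc 0 y) ↔ y / ((ν : F) * th m (ν : F)) ∈ BB hc H := by
    intro ν y
    rw [MC, conj_inv_hS, mem_BB]
  refine ⟨1, hS hc ν₂, hS hc ν₃, uS hc 0 z₀, uS hc 0 w₀, uS hc 0 v₀, MC_one.2 ((mem_BB hc).1 hz), ?_, ?_, ?_, ?_⟩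
  · rw [hMC, hν₂]
    exact hw
  · rw [hMC, hν₃]
    exact hv
  · rw [hzwv, uS_zero_mul]
  · intro a b ha ha' hb hab
    obtain ⟨a₀, rfl⟩ := (mem_ZZ hc).1 (hZ (MC_one.1 ha))
    obtain ⟨b', hb'⟩ := (mem_ZZ hc).1 (hZ hb)
    have hb'' : b = uS hc 0 ((ν₃ : F) * th m (ν₃ : F) * b') := by
      rw [← conj_hS_zero, ← hb']
      group
    subst hb''
    rw [uS_zero_mul] at hab
    have h3 := (uS_injective hc hab).2
    refine hno a₀ _ ((mem_BB hc).2 (MC_one.1 ha)) ?_ ?_ h3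
    · rw [hMC, hν₂] at ha'
      exact ha'
    · rw [hMC] at hb
      rw [← hν₃]
      exact hb

/-- Subgroups of the centre. -/
theorem wit_elem {H : Subgroup (Sz F m)} (hZ : H ≤ ZZ hc) (hbot : H ≠ ⊥) (hne : H ≠ ZZ hc) : Wit H := by
  obtain ⟨⟨g, hg⟩, hg1'⟩ := Subgroup.ne_bot_iff_exists_ne_one.1 hbot
  have hg1 : g ≠ 1 := fun h => hg1' (Subtype.ext h)
  obtain ⟨b₀, rfl⟩ := (mem_ZZ hc).1 (hZ hg)
  have hb₀ : b₀ ≠ 0 := by
    rintro rfl
    exact hg1 (uS_zero hc)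
  obtain ⟨ν, hν⟩ := exists_unit hc (inv_ne_zero hb₀)
  apply wit_of_map_conj (hS hc ν)
  have hmem : ∀ y : Sz F m, y ∈ H.map (MulAut.conj (hS hc ν)).toMonoidHom ↔ (hS hc ν)⁻¹ * y * hS hc ν ∈ H := by
    intro y
    constructor
    · rintro ⟨w, hw, rfl⟩
      show (hS hc ν)⁻¹ * (hS hc ν * w * (hS hc ν)⁻¹) * hS hc ν ∈ H
      have e : (hS hc ν)⁻¹ * (hS hc ν * w * (hS hc ν)⁻¹) * hS hc ν = w := by group
      rwa [e]
    · intro h
      refine ⟨_, h, ?_⟩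
      show hS hc ν * ((hS hc ν)⁻¹ * y * hS hc ν) * (hS hc ν)⁻¹ = y
      group
  apply wit_elem_core hc
  · intro y hy
    rw [hmem] at hy
    obtain ⟨b, hb⟩ := (mem_ZZ hc).1 (hZ hy)
    refine (mem_ZZ hc).2 ⟨(ν : F) * th m (ν : F) * b, ?_⟩
    rw [← conj_hS_zero, ← hb]
    group
  · rw [hmem, conj_inv_hS, hν]
    convert hg using 2
    field_simp
  · by_contra hall
    push Not at hall
    apply hne
    apply le_antisymm hZ
    intro y hy
    obtain ⟨b, rfl⟩ := (mem_ZZ hc).1 hy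
    have h3 := hall ((ν : F) * th m (ν : F) * b)
    rw [hmem, conj_inv_hS] at h3
    have hν0 : (ν : F) * th m (ν : F) ≠ 0 := by
      rw [hν]
      exact inv_ne_zero hb₀
    have e : (ν : F) * th m (ν : F) * b / ((ν : F) * th m (ν : F)) = b :=
      mul_div_cancel_left₀ b hν0
    rwa [e] at h3

end Cfsg.Agent.Lib.SzChar.Binary
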