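import Mathlib
import Cfsg.Agent.Lib.SzChar.BinCases

/-!
Binary coset actions of the Suzuki groups: subgroups of a point stabiliser of even order with nontrivial
elements of odd order.
-/

set_option autoImplicit false
set_option linter.unusedSimpArgs false
set_option linter.unusedSectionVars false
set_option linter.style.haveILetI false

namespace Cfsg.Agent.Lib.SzChar.Binary

open Cfsg Cfsg.Agent.Lib.Suzuki.Core Cfsg.Agent.Lib.Suzuki.Elements
  Cfsg.Agent.Lib.Suzuki.Stab Cfsg.Agent.Lib.Suzuki.Group Cfsg.Agent.Lib.Suzuki.Simple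
  Cfsg.Agent.Lib.Suzuki.Sylow2 Cfsg.Agent.Lib.Suzuki.Count Cfsg.Agent.Lib.SzIso.OutSz
  Cfsg.Agent.Lib.SzIso.SubSz Cfsg.Agent.Lib.Suzuki.Cyc Cfsg.Agent.Lib.Suzuki.CN
  Cfsg.Agent.Lib.SuzukiX.Partition Cfsg.Agent.Lib.SuzukiX.Central Cfsg.Agent.Lib.SzIso.MaxSz
  Cfsg.Agent.Lib.Suzuki.Exc Cfsg.Agent.Lib.Suzuki.TI Cfsg.Agent.Lib.SzIso.SolSz
  Cfsg.Agent.Lib.SzChar.Tori Cfsg.Agent.Lib.SzChar.Table Cfsg.Agent.Lib.SzIso.Fix2
  Cfsg.Agent.Lib.SzChar.Ore Cfsg.Agent.Lib.SzChar.BinAbs Cfsg.Agent.Lib.SzChar.Values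

variable {F : Type*} [Field F] [Fintype F] [CharP F 2] {m : ℕ} (hc : Ctx F m)

include hc in
lemma comm_mem_Usub {x b : Sz F m} (hx : x • (infO : OO F m) = infO) (hb : b • (infO : OO F m) = infO) :
    x⁻¹ * b * x * b⁻¹ ∈ Usub hc := by
  let X : MulAction.stabilizer (Sz F m) (infO : OO F m) := ⟨x, hx⟩
  let B : MulAction.stabilizer (Sz F m) (infO : OO F m) := ⟨b, hb⟩
  have h1 : lamHom hc (X⁻¹ * B * X * B⁻¹) = 1 := by
    simp only [map_mul, map_inv]
    rw [mul_comm (lamHom hc X)⁻¹ (lamHom hc B), mul_assoc (lamHom hc B), inv_mul_cancel, mul_one,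
      mul_inv_cancel]
  obtain ⟨a, b', h⟩ := lamFun_spec hc (X⁻¹ * B * X * B⁻¹)
  have h2 : lamFun hc (X⁻¹ * B * X * B⁻¹) = 1 := h1
  rw [h2, hS_one, mul_one] at h
  have h3 : x⁻¹ * b * x * b⁻¹ = uS hc a b' := h
  rw [h3]
  exact uS_mem hc _ _

include hc in
lemma L2' {x U U' : Sz F m} (hxinf : x • (infO : OO F m) = infO)
    (h : U • (infO : OO F m) = U' • infO) :
    ∃ w ∈ Usub hc, (U * x * U⁻¹)⁻¹ * (U' * x * U'⁻¹) = U * w * U⁻¹ := by
  have hb : (U⁻¹ * U') • (infO : OO F m) = infO := by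
    rw [mul_smul, ← h, inv_smul_smul]
  refine ⟨_, comm_mem_Usub hc hxinf hb, ?_⟩
  group

include hc in
lemma L3' {x U₁ U₂ t : Sz F m} (hxinf : x • (infO : OO F m) = infO) (h₁ : U₁ • (infO : OO F m) = infO)
    (h₂ : U₂ • (infO : OO F m) = infO) (ht : t ∈ Usub hc) (htx : (U₁ * x * U₁⁻¹) * (U₂ * x * U₂⁻¹) = t)
    (hodd : Odd (orderOf x)) (hx1 : x ≠ 1) : False := by
  have hw₁ := comm_mem_Usub hc hxinf h₁
  have hw₂ := comm_mem_Usub hc hxinf h₂
  have hx' : x⁻¹ • suzukiPointInfinity F = suzukiPointInfinity F := by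
    have h3 : x⁻¹ • (infO : OO F m) = infO := by rw [inv_smul_eq_iff, hxinf]
    exact congrArg Subtype.val h3
  have h3 := conj_mem_Usub_of_fix hc hx' hw₁
  have hxx : x * x ∈ Usub hc := by
    have e : x * x = t * ((x⁻¹ * (x⁻¹ * U₁ * x * U₁⁻¹) * x⁻¹⁻¹) * (x⁻¹ * U₂ * x * U₂⁻¹))⁻¹ := by
      rw [← htx]
      group
      exact (pow_two x).symm
    rw [e]
    exact (Usub hc).mul_mem ht ((Usub hc).inv_mem ((Usub hc).mul_mem h3 hw₂))
  have hC : Odd (Nat.card (Subgroup.zpowers x)) := by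
    rwa [Nat.card_zpowers]
  have h4 := eq_one_of_mem_Usub_odd hc hxx hC
    ((Subgroup.zpowers x).mul_mem (Subgroup.mem_zpowers x) (Subgroup.mem_zpowers x))
  have h5 : orderOf x ∣ 2 := orderOf_dvd_of_pow_eq_one (by rw [pow_two]; exact h4)
  have h6 : Nat.Coprime (orderOf x) 2 := Nat.coprime_two_right.2 hodd
  have h7 : orderOf x = 1 := Nat.Coprime.eq_one_of_dvd h6 h5
  exact hx1 (orderOf_eq_one_iff.1 h7)

lemma ptO_inj {x y x' y' : F} (h : (ptO x y : OO F m) = ptO x' y') : x = x' ∧ y = y' :=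
  pt_eq_pt_iff.1 (congrArg Subtype.val h)

lemma act_form (a b : F) (l : Fˣ) (x y : F) :
    (uS hc a b * hS hc l) • (ptO x y : OO F m) =
      ptO ((l : F) * x + a) ((l : F) * th m (l : F) * y + b + th m a * ((l : F) * x)) := by
  apply Subtype.ext
  rw [coe_smul_O]
  show (uS hc a b * hS hc l) • pt m x y = pt m _ _
  rw [mul_smul, hS_smul_pt, uS_smul_pt]

lemma act_central (τ x y : F) : uS hc 0 τ • (ptO x y : OO F m) = ptO x (y + τ) := by
  apply Subtype.ext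
  rw [coe_smul_O]
  show uS hc 0 τ • pt m x y = pt m _ _
  rw [uS_smul_pt]
  simp [th_zero]

include hc in
/-- The witness once a good decomposition is found. -/
lemma borel_no {H : Subgroup (Sz F m)} (hfix : ∀ g ∈ H, g • (infO : OO F m) = infO)
    {t a b : Sz F m} (ht : IsInv t) (htH : t ∈ H) (haH : a ∈ H) (hbH : b ∈ H) (hab : t = a * b)
    {α₂ β₂ α₃ β₃ : F} (h2 : a • (ptO α₂ β₂ : OO F m) = ptO α₂ β₂) (h3 : b • (ptO α₃ β₃ : OO F m) = ptO α₃ β₃)
    (hne : α₂ ≠ α₃) : False := by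
  have h2F : (2 : F) = 0 := CharP.cast_eq_zero F 2
  obtain ⟨τ, hτ0, rfl⟩ := inv_at_inf hc ht (hfix _ htH)
  have ha := hfix a haH
  have hb := hfix b hbH
  obtain ⟨a₁, a₂, l, rfl⟩ := stab_inf_decomp hc (g := a) (congrArg Subtype.val ha)
  obtain ⟨b₁, b₂, l', rfl⟩ := stab_inf_decomp hc (g := b) (congrArg Subtype.val hb)
  have h3' := h3
  rw [act_form] at h2 h3
  have e2 := (ptO_inj h2).1
  have e3 := (ptO_inj h3).1
  have hact : ∀ x y : F, uS hc 0 τ • (ptO x y : OO F m) = (uS hc a₁ a₂ * hS hc l) • ((uS hc b₁ b₂ * hS hc l') • (ptO x y : OO F m)) := by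
    intro x y
    rw [← mul_smul, ← hab]
  have e0 := hact 0 0
  have e1 := hact 1 0
  rw [act_central, act_form, act_form] at e0 e1
  have e0' := (ptO_inj e0).1
  have e1' := (ptO_inj e1).1
  have hll : (l : F) * (l' : F) = 1 := by
    linear_combination (-1 : F) * e1' + e0'
  have hl : ((l : F) + 1) * (α₂ + α₃) = 0 := by
    linear_combination (-1 : F) * e0' + (-(l : F)) * e3 + (-1 : F) * e2 + α₃ * hll + ((l : F) * α₂ + α₃) * h2F
  have hl1 : l = 1 := by
    rcases mul_eq_zero.1 hl with h | h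
    · apply Units.ext
      rw [Units.val_one]
      linear_combination h + (-1 : F) * h2F
    · exfalso
      apply hne
      linear_combination h + (-α₃) * h2F
  subst hl1
  rw [Units.val_one] at h2 e2
  have ha1 : a₁ = 0 := by linear_combination e2
  subst ha1
  have ha2 : a₂ = 0 := by
    have := (ptO_inj h2).2
    rw [th_one, th_zero] at this
    linear_combination this
  subst ha2
  rw [uS_zero, hS_one, one_mul, one_mul] at hab
  rw [← hab, act_central] at h3'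
  have := (ptO_inj h3').2
  apply hτ0
  linear_combination this

include hc in
theorem wit_borel {H : Subgroup (Sz F m)} (hfix : ∀ g ∈ H, g • (infO : OO F m) = infO)
    {t x : Sz F m} (ht : IsInv t) (htH : t ∈ H) (hxH : x ∈ H) (hx1 : x ≠ 1) (hodd : Odd (orderOf x)) :
    Wit H := by
  classical
  have hxinf := hfix x hxH
  have htinf := hfix t htH
  obtain ⟨τ, hτ0, hτ⟩ := inv_at_inf hc ht htinf
  have htU : t ∈ Usub hc := by
    rw [hτ]
    exact uS_mem hc _ _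
  obtain ⟨p', hne, hp'⟩ := exists_second_fix hc hx1 hodd hxinf
  have hT : IsT x := ⟨hx1, infO, p', hne, hxinf, hp'⟩
  obtain ⟨g₀, hg₀⟩ := exists_conj_zz hc ht
  have hconj : IsConj t (zz hc) := isConj_iff.2 ⟨g₀, hg₀⟩
  have hN := card_T_inv' hc hT hconj
  have hex : ∀ y : Sz F m, IsConj x y → ∃ u : Sz F m, u * x * u⁻¹ = y := fun y h => isConj_iff.1 h
  choose! u hu using hex
  let ψ : Sz F m → OO F m := fun y => u y • infO
  -- `y` fixes `ψ y`
  have L1 : ∀ y, IsConj x y → y • ψ y = ψ y := by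
    intro y hy
    have h : (u y * x * (u y)⁻¹) • (u y • (infO : OO F m)) = u y • infO := by
      rw [mul_smul, mul_smul, inv_smul_smul, hxinf]
    rwa [hu y hy] at h
  -- different points
  have L3 : ∀ y y', IsConj x y → IsConj x y' → y * y' = t → ψ y ≠ ψ y' := by
    intro y y' hy hy' hyy' hψ
    have h1 : t • ψ y = ψ y := by
      rw [← hyy', mul_smul]
      nth_rewrite 1 [hψ]
      rw [L1 y' hy', ← hψ, L1 y hy]
    have h2 : ψ y = infO := fix_unique hc ht h1 htinf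
    have h3 : ψ y' = infO := by rw [← hψ, h2]
    refine L3' hc hxinf h2 h3 htU ?_ hodd hx1
    rw [hu y hy, hu y' hy', hyy']
  -- injectivity
  have L4 : ∀ y₁ y₂ y₁' y₂', IsConj x y₁ → IsConj x y₂ → IsConj x y₁' → IsConj x y₂' → y₁ * y₂ = t →
      y₁' * y₂' = t → ψ y₁ = ψ y₁' → ψ y₂ = ψ y₂' → y₁ = y₁' := by
    intro y₁ y₂ y₁' y₂' h₁ h₂ h₁' h₂' h12 h12' he1 he2
    obtain ⟨w, hw, hwe⟩ := L2' hc (U := u y₁) (U' := u y₁') hxinf he1
    rw [hu y₁ h₁, hu y₁' h₁'] at hwe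
    have he : y₁⁻¹ * y₁' = y₂ * y₂'⁻¹ := by
      have e : y₁' = y₁ * y₂ * y₂'⁻¹ := by
        rw [h12, ← h12']
        group
      rw [e]
      group
    have hfix2 : (y₁⁻¹ * y₁') • ψ y₂ = ψ y₂ := by
      rw [he, mul_smul]
      have h3 : y₂'⁻¹ • ψ y₂ = ψ y₂ := by
        rw [he2, inv_smul_eq_iff]
        exact (L1 y₂' h₂').symm
      rw [h3, L1 y₂ h₂]
    rw [hwe] at hfix2
    have hw1 : w = 1 := by
      by_contra hw1
      have h5 : w • ((u y₁)⁻¹ • ψ y₂) = (u y₁)⁻¹ • ψ y₂ := by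
        rw [mul_smul, mul_smul] at hfix2
        rw [eq_inv_smul_iff]
        exact hfix2
      have h6 := fix_Usub hc hw hw1 h5
      apply L3 y₁ y₂ h₁ h₂ h12
      rw [inv_smul_eq_iff] at h6
      exact h6.symm
    rw [hw1] at hwe
    have h7 : y₁⁻¹ * y₁' = 1 := by
      rw [hwe]
      group
    exact (inv_mul_eq_one.1 h7)
  have h2F : (2 : F) = 0 := CharP.cast_eq_zero F 2
  -- the good decomposition
  obtain ⟨y₁, y₂, h₁, h₂, h12, α₂, β₂, α₃, β₃, hψ₁, hψ₂, hαne⟩ : ∃ y₁ y₂ : Sz F m, IsConj x y₁ ∧ IsConj x y₂ ∧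
      y₁ * y₂ = t ∧ ∃ α₂ β₂ α₃ β₃ : F, ψ y₁ = ptO α₂ β₂ ∧ ψ y₂ = ptO α₃ β₃ ∧ α₂ ≠ α₃ := by
    by_contra hno
    push Not at hno
    let dec : F × F × Option F → OO F m × OO F m := fun c => c.2.2.elim (ptO c.1 c.2.1, infO)
      (fun δ => if δ = 0 then (infO, ptO c.1 c.2.1) else (ptO c.1 c.2.1, ptO c.1 (c.2.1 + δ)))
    have hcode : ∀ p : {p : Sz F m × Sz F m // IsConj x p.1 ∧ IsConj x p.2 ∧ p.1 * p.2 = t},
        ∃ c, dec c = (ψ p.1.1, ψ p.1.2) := by
      rintro ⟨⟨y₁, y₂⟩, h₁, h₂, h12⟩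
      dsimp only at h₁ h₂ h12 ⊢
      rcases OO_cases (ψ y₁) with h | ⟨a, b, h⟩
      · rcases OO_cases (ψ y₂) with h' | ⟨a', b', h'⟩
        · exact absurd (h.trans h'.symm) (L3 _ _ h₁ h₂ h12)
        · exact ⟨(a', b', some 0), by simp [dec, h, h']⟩
      · rcases OO_cases (ψ y₂) with h' | ⟨a', b', h'⟩
        · exact ⟨(a, b, none), by simp [dec, h, h']⟩
        · have haa : a = a' := hno y₁ y₂ h₁ h₂ h12 a b a' b' h h'
          subst haa
          have hbb : b + b' ≠ 0 := by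
            intro h0
            have h3 : b = b' := by linear_combination h0 + (-b') * h2F
            subst h3
            exact L3 _ _ h₁ h₂ h12 (h.trans h'.symm)
          refine ⟨(a, b, some (b + b')), ?_⟩
          have h3 : b + (b + b') = b' := by linear_combination b * h2F
          simp [dec, h, h', hbb, h3]
    choose code hcode using hcode
    have hinj : Function.Injective code := by
      rintro ⟨⟨y₁, y₂⟩, h₁, h₂, h12⟩ ⟨⟨y₁', y₂'⟩, h₁', h₂', h12'⟩ h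
      have h3 := hcode ⟨⟨y₁, y₂⟩, h₁, h₂, h12⟩
      have h4 := hcode ⟨⟨y₁', y₂'⟩, h₁', h₂', h12'⟩
      rw [h, h4] at h3
      have h5 := Prod.ext_iff.1 h3
      have h6 : y₁' = y₁ := L4 _ _ _ _ h₁' h₂' h₁ h₂ h12' h12 h5.1 h5.2
      subst h6
      have h7 : y₂ = y₂' := mul_left_cancel (h12.trans h12'.symm)
      subst h7
      rfl
    have hle := Nat.card_le_card_of_injective code hinj
    have hcard : Nat.card (F × F × Option F) = 2 ^ (2 * m + 1) * (2 ^ (2 * m + 1) * (2 ^ (2 * m + 1) + 1)) := by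
      have h5 : Nat.card (Option F) = 2 ^ (2 * m + 1) + 1 := by
        rw [Nat.card_eq_fintype_card, Fintype.card_option, ← Nat.card_eq_fintype_card, card_field_eq hc]
      rw [Nat.card_prod, Nat.card_prod, h5, card_field_eq hc]
    rw [hcard] at hle
    have h6 : (Nat.card {p : Sz F m × Sz F m // IsConj x p.1 ∧ IsConj x p.2 ∧ p.1 * p.2 = t} : ℝ) ≤
        ((2 ^ (2 * m + 1) * (2 ^ (2 * m + 1) * (2 ^ (2 * m + 1) + 1)) : ℕ) : ℝ) := by exact_mod_cast hle
    rw [two_dd_sq] at hN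
    push_cast at h6 hN
    nlinarith
  have hfixMC : ∀ {w a : Sz F m}, MC H w a → a • (w • (infO : OO F m)) = w • infO := by
    intro w a h
    have h3 := hfix _ h
    rw [mul_smul, mul_smul, inv_smul_eq_iff] at h3
    exact h3
  refine ⟨1, u y₁, u y₂, t, y₁, y₂, MC_one.2 htH, ?_, ?_, h12.symm, ?_⟩
  · have := MC_conj_self (u := u y₁) hxH
    rwa [hu y₁ h₁] at this
  · have := MC_conj_self (u := u y₂) hxH
    rwa [hu y₂ h₂] at this
  · intro a b ha ha' hb hab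
    have haH : a ∈ H := MC_one.1 ha
    have hbH : b ∈ H := by
      have e : b = a⁻¹ * t := by rw [hab]; group
      rw [e]
      exact H.mul_mem (H.inv_mem haH) htH
    have h2 := hfixMC ha'
    have h3 := hfixMC hb
    change a • ψ y₁ = ψ y₁ at h2
    change b • ψ y₂ = ψ y₂ at h3
    rw [hψ₁] at h2
    rw [hψ₂] at h3
    exact borel_no hc hfix ht htH haH hbH hab h2 h3 hαne

end Cfsg.Agent.Lib.SzChar.Binary
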