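import Mathlib
import Cfsg.Agent.Lib.SzChar.BinBorel

/-!
Binary coset actions of the Suzuki groups: subgroups of even order of the normalizer of a torus with
nontrivial elements of odd order.
-/

set_option autoImplicit false
set_option linter.unusedSimpArgs false
set_option linter.unusedSectionVars false
set_option linter.style.haveILetI false

namespace Cfsg.Agent.Lib.SzChar.Binary

open Cfsg Cfsg.Agent.Lib.Suzuki.Core Cfsg.Agent.Lib.Suzuki.Elements
  Cfsg.Agent.Lib.Suzuki.Stab Cfsg.Agent.Lib.Suzuki.Group Cfsg.Agent.Lib.Suzuki.Simple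
  Cfsg.Agent.Lib.Suzuki.Sylow2 Cfsg.Agent.Lib.Suzuki.Count Cfsg.Agent.Lib.SzIso.OutSz
  Cfsg.Agent.Lib.SzIso.SubSz Cfsg.Agent.Lib.Suzuki.Cyc Cfsg.Agent.Lib.Suzuki.CN
  Cfsg.Agent.Lib.SuzukiX.Partition Cfsg.Agent.Lib.SuzukiX.Central Cfsg.Agent.Lib.SzIso.MaxSz
  Cfsg.Agent.Lib.Suzuki.Exc Cfsg.Agent.Lib.Suzuki.TI Cfsg.Agent.Lib.SzIso.SolSz
  Cfsg.Agent.Lib.SzChar.Tori Cfsg.Agent.Lib.SzChar.Table Cfsg.Agent.Lib.SzIso.Fix2
  Cfsg.Agent.Lib.SzChar.Ore Cfsg.Agent.Lib.SzChar.BinAbs Cfsg.Agent.Lib.SzChar.Values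

section Count

/-- Counting with fibres. -/
lemma fiber_bound {α β : Type*} (A : Set α) (S : Set β) (hA : A.Finite) (hS : S.Finite) (f : α → β)
    (hf : ∀ a ∈ A, f a ∈ S) (n : ℕ) (hn : ∀ b ∈ S, {a | a ∈ A ∧ f a = b}.ncard ≤ n) :
    A.ncard ≤ n * S.ncard := by
  classical
  rw [Set.ncard_eq_toFinset_card A hA, Set.ncard_eq_toFinset_card S hS]
  apply Finset.card_le_mul_card_image_of_maps_to (f := f)
  · intro a ha
    simpa using hf a (by simpa using ha)
  · intro b hb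
    have h1 := hn b (by simpa using hb)
    have hfin : {a | a ∈ A ∧ f a = b}.Finite := hA.subset (fun a ha => ha.1)
    rw [Set.ncard_eq_toFinset_card _ hfin] at h1
    have h2 : ((hA.toFinset).filter fun a => f a = b) = hfin.toFinset := by
      ext a
      simp
    rw [h2]
    exact h1

variable {G : Type*} [Group G] [Finite G]

/-- Sets inside a coset. -/
lemma ncard_le_of_coset {K : Subgroup G} (S : Set G) (hS : ∀ a ∈ S, ∀ b ∈ S, a⁻¹ * b ∈ K) :
    S.ncard ≤ Nat.card K := by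
  by_cases h : S.Nonempty
  · obtain ⟨a₀, ha₀⟩ := h
    rw [← Nat.card_coe_set_eq]
    refine Nat.card_le_card_of_injective (fun b : S => (⟨a₀⁻¹ * b, hS a₀ ha₀ b b.2⟩ : K)) ?_
    intro b b' hb
    have h1 : a₀⁻¹ * (b : G) = a₀⁻¹ * b' := congrArg Subtype.val hb
    exact Subtype.ext (mul_left_cancel h1)
  · rw [Set.not_nonempty_iff_eq_empty] at h
    rw [h]
    simp

end Count

variable {F : Type*} [Field F] [Fintype F] [CharP F 2] {m : ℕ} (hc : Ctx F m)

section Facts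

variable {x : Sz F m}

include hc in
lemma odd_of_mem_Cz (hx : x ≠ 1) (hodd : Odd (orderOf x)) {y : Sz F m} (hy : y ∈ Cz x) : Odd (orderOf y) := by
  have h1 := (good_of_odd hc hx hodd).odd hc.hm
  have h2 := Subgroup.orderOf_dvd_natCard (Cz x) hy
  exact Odd.of_dvd_nat h1 h2

include hc in
lemma inv_not_mem_Cz (hx : x ≠ 1) (hodd : Odd (orderOf x)) {s : Sz F m} (hs : IsInv s) : s ∉ Cz x := by
  intro h
  have h1 := odd_of_mem_Cz hc hx hodd h
  have h2 : orderOf s ∣ 2 := orderOf_dvd_of_pow_eq_one (by rw [pow_two]; exact hs.2)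
  have h3 : orderOf s = 1 := Nat.Coprime.eq_one_of_dvd (Nat.coprime_two_right.2 h1) h2
  exact hs.1 (orderOf_eq_one_iff.1 h3)

include hc in
/-- Elements of the normalizer lie in the torus or have order dividing four. -/
lemma mem_Cz_or_pow_four (hx : x ≠ 1) (hodd : Odd (orderOf x)) {y : Sz F m} (hy : y ∈ NN x) :
    y ∈ Cz x ∨ y ^ 4 = 1 := by
  by_cases hy1 : y = 1
  · left
    rw [hy1]
    exact (Cz x).one_mem
  rcases trichotomy hy1 with h | h | h
  · exact Or.inr (Y1_two_power hc h)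
  · exact Or.inl ((good_of_odd hc hx hodd).norm y hy (IsT_odd hc h))
  · exact Or.inl ((good_of_odd hc hx hodd).norm y hy (odd_of_IsFPF hc h))

include hc in
/-- Involutions in the normalizer invert the torus. -/
lemma inv_inverts (hx : x ≠ 1) (hodd : Odd (orderOf x)) {s : Sz F m} (hs : IsInv s) (hsN : s ∈ NN x)
    {c : Sz F m} (hcC : c ∈ Cz x) : s * c * s⁻¹ = c⁻¹ := by
  have hG := good_of_odd hc hx hodd
  have hconj : s * c * s⁻¹ ∈ Cz x := (Subgroup.mem_normalizer_iff.1 hsN c).1 hcC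
  have hcomm : c * (s * c * s⁻¹) = (s * c * s⁻¹) * c := Cfsg.Agent.Lib.SuzukiX.Partition.comm_of_isCyclic hc hG.cyc hcC hconj
  have hsinv := hs.inv_eq
  have hss : s * s = 1 := hs.2
  have hmem : c * (s * c * s⁻¹) ∈ Cz s := by
    rw [mem_Cz]
    rw [hsinv] at hcomm ⊢
    calc s * (c * (s * c * s)) = (s * c * s) * c * s := by group
      _ = c * (s * c * s) * s := by rw [← hcomm]
  have hprod : c * (s * c * s⁻¹) = 1 := by
    by_contra hne
    have h1 := hG.eq _ ((Cz x).mul_mem hcC hconj) hne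
    have h2 : s ∈ Cz (c * (s * c * s⁻¹)) := by
      rw [mem_Cz_comm]
      exact hmem
    rw [h1] at h2
    exact inv_not_mem_Cz hc hx hodd hs h2
  exact (eq_inv_of_mul_eq_one_right hprod)

include hc in
/-- The product of two involutions of the normalizer lies in the torus. -/
lemma inv_mul_inv_mem (hx : x ≠ 1) (hodd : Odd (orderOf x)) {s s' : Sz F m} (hs : IsInv s) (hs' : IsInv s')
    (hsN : s ∈ NN x) (hsN' : s' ∈ NN x) : s * s' ∈ Cz x := by
  have h1 := inv_inverts hc hx hodd hs hsN (self_mem_Cz x)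
  have h2 := inv_inverts hc hx hodd hs' hsN' (self_mem_Cz x)
  have h3 : s * x⁻¹ * s⁻¹ = x := by
    rw [inv_inverts hc hx hodd hs hsN ((Cz x).inv_mem (self_mem_Cz x)), inv_inv]
  rw [mem_Cz]
  calc x * (s * s') = (s * x⁻¹ * s⁻¹) * (s * s') := by rw [h3]
    _ = s * x⁻¹ * s' := by group
    _ = s * (s' * x * s'⁻¹) * s' := by rw [h2]
    _ = (s * s') * x := by group

end Facts

section Key

variable {x₁ x₂ x' t a b : Sz F m}

include hc in
/-- The involution `t = x₁ x₂` does not normalize the tori of `x₁`, `x₂`. -/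
lemma inv_not_mem_NN_left (h₁ : x₁ ≠ 1) (ho₁ : Odd (orderOf x₁)) (ho₂ : Odd (orderOf x₂)) (ht : IsInv t)
    (h12 : x₁ * x₂ = t) : t ∉ NN x₁ := by
  intro hN
  have hG := good_of_odd hc h₁ ho₁
  have h2 : x₂ ∈ NN x₁ := by
    have e : x₂ = x₁⁻¹ * t := by rw [← h12]; group
    rw [e]
    exact (NN x₁).mul_mem ((NN x₁).inv_mem (Subgroup.le_normalizer (self_mem_Cz _))) hN
  have h3 : x₂ ∈ Cz x₁ := hG.norm x₂ h2 ho₂
  have h4 : t ∈ Cz x₁ := by
    rw [← h12]
    exact (Cz x₁).mul_mem (self_mem_Cz _) h3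
  exact inv_not_mem_Cz hc h₁ ho₁ ht h4

include hc in
lemma inv_not_mem_NN_right (ho₁ : Odd (orderOf x₁)) (h₂ : x₂ ≠ 1) (ho₂ : Odd (orderOf x₂)) (ht : IsInv t)
    (h12 : x₁ * x₂ = t) : t ∉ NN x₂ := by
  intro hN
  have hG := good_of_odd hc h₂ ho₂
  have h2 : x₁ ∈ NN x₂ := by
    have e : x₁ = t * x₂⁻¹ := by rw [← h12]; group
    rw [e]
    exact (NN x₂).mul_mem hN ((NN x₂).inv_mem (Subgroup.le_normalizer (self_mem_Cz _)))
  have h3 : x₁ ∈ Cz x₂ := hG.norm x₁ h2 ho₁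
  have h4 : t ∈ Cz x₂ := by
    rw [← h12]
    exact (Cz x₂).mul_mem h3 (self_mem_Cz _)
  exact inv_not_mem_Cz hc h₂ ho₂ ht h4

include hc in
/-- Key lemma: the torus of `x'` is determined by `a`. -/
lemma bad_key (h₁ : x₁ ≠ 1) (ho₁ : Odd (orderOf x₁)) (h₂ : x₂ ≠ 1) (ho₂ : Odd (orderOf x₂))
    (h' : x' ≠ 1) (ho' : Odd (orderOf x')) (ht : IsInv t) (h12 : x₁ * x₂ = t)
    (ha₁ : a ∈ NN x₁) (hb₂ : b ∈ NN x₂) (ha' : a ∈ NN x') (ht' : t ∈ NN x') (hab : t = a * b) :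
    Cz x' = Cz (a⁻¹ * a⁻¹ * t) := by
  have hG' := good_of_odd hc h' ho'
  have hG₁ := good_of_odd hc h₁ ho₁
  have hG₂ := good_of_odd hc h₂ ho₂
  have hF₁ := inv_not_mem_NN_left hc h₁ ho₁ ho₂ ht h12
  have hF₂ := inv_not_mem_NN_right hc ho₁ h₂ ho₂ ht h12
  have hb' : b ∈ NN x' := by
    have e : b = a⁻¹ * t := by rw [hab]; group
    rw [e]
    exact (NN x').mul_mem ((NN x').inv_mem ha') ht'
  -- `a` is outside the torus
  have ha_out : a ∉ Cz x' := by
    intro haC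
    by_cases ha1 : a = 1
    · subst ha1
      rw [one_mul] at hab
      subst hab
      exact hF₂ hb₂
    · have hao := odd_of_mem_Cz hc h' ho' haC
      have h3 : a ∈ Cz x₁ := hG₁.norm a ha₁ hao
      have h4 := hG'.eq a haC ha1
      have h5 := hG₁.eq a h3 ha1
      apply hF₁
      have h6 : Cz x' = Cz x₁ := h4.symm.trans h5
      rw [NN, ← h6]
      exact ht'
  have hb_out : b ∉ Cz x' := by
    intro hbC
    by_cases hb1 : b = 1
    · subst hb1
      rw [mul_one] at hab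
      subst hab
      exact hF₁ ha₁
    · have hbo := odd_of_mem_Cz hc h' ho' hbC
      have h3 : b ∈ Cz x₂ := hG₂.norm b hb₂ hbo
      have h4 := hG'.eq b hbC hb1
      have h5 := hG₂.eq b h3 hb1
      apply hF₂
      have h6 : Cz x' = Cz x₂ := h4.symm.trans h5
      rw [NN, ← h6]
      exact ht'
  have ha4 : a ^ 4 = 1 := (mem_Cz_or_pow_four hc h' ho' ha').resolve_left ha_out
  have ha1 : a ≠ 1 := by
    rintro rfl
    exact ha_out (Cz x').one_mem
  have haa : a * a ≠ 1 := by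
    intro h
    have hI : IsInv a := ⟨ha1, h⟩
    apply hb_out
    have e : b = a * t := by
      rw [hab, ← mul_assoc, h, one_mul]
    rw [e]
    exact inv_mul_inv_mem hc h' ho' hI ht ha' ht'
  have hs : IsInv (a⁻¹ * a⁻¹) := by
    constructor
    · intro h
      apply haa
      have : (a * a)⁻¹ = 1 := by rw [mul_inv_rev]; exact h
      exact inv_eq_one.1 this
    · have e : a⁻¹ * a⁻¹ * (a⁻¹ * a⁻¹) = (a ^ 4)⁻¹ := by group
      rw [e, ha4, inv_one]
  have hsN : a⁻¹ * a⁻¹ ∈ NN x' := (NN x').mul_mem ((NN x').inv_mem ha') ((NN x').inv_mem ha')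
  have hy := inv_mul_inv_mem hc h' ho' hs ht hsN ht'
  have hy1 : a⁻¹ * a⁻¹ * t ≠ 1 := by
    intro h
    apply hF₁
    have e : t = a * a := by
      have h3 : t = (a⁻¹ * a⁻¹)⁻¹ := eq_inv_of_mul_eq_one_right h
      rw [h3]
      group
      exact pow_two a
    rw [e]
    exact (NN x₁).mul_mem ha₁ ha₁
  exact (hG'.eq _ hy hy1).symm

end Key

include hc in
/-- Subgroups of the normalizer of a torus of even order and not `2`-groups. -/
theorem wit_nn {H : Subgroup (Sz F m)} {x t : Sz F m} (hHN : H ≤ NN x) (hxH : x ∈ H) (hx1 : x ≠ 1)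
    (hodd : Odd (orderOf x)) (ht : IsInv t) (htH : t ∈ H) : Wit H := by
  classical
  have h2x : 2 < orderOf x := by
    have h3 : orderOf x ≠ 1 := fun h => hx1 (orderOf_eq_one_iff.1 h)
    have h4 : 0 < orderOf x := hodd.pos
    obtain ⟨k, hk⟩ := hodd
    omega
  obtain ⟨u, v, huv⟩ := exists_conj_mul_of_two_lt hc h2x ht.1
  have hG := good_of_odd hc hx1 hodd
  have hneconj : ∀ w : Sz F m, w * x * w⁻¹ ≠ 1 := by
    intro w h
    apply hx1
    have e : x = w⁻¹ * (w * x * w⁻¹) * w := by group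
    rw [e, h]
    group
  have hoddconj : ∀ w : Sz F m, Odd (orderOf (w * x * w⁻¹)) := by
    intro w
    rwa [ord_conj']
  have hMC : ∀ {w y : Sz F m}, MC H w y → y ∈ NN (w * x * w⁻¹) := by
    intro w y h
    have h3 : w⁻¹ * y * w ∈ NN x := hHN h
    have h4 := (mem_NN_conj hc (a := x) (y := w⁻¹ * y * w) (t := w)).2 h3
    have e : w * (w⁻¹ * y * w) * w⁻¹ = y := by group
    rwa [e] at h4
  set x₁ := u * x * u⁻¹ with hx₁
  set x₂ := v * x * v⁻¹ with hx₂
  have h12 : x₁ * x₂ = t := huv.symm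
  have h₁ : x₁ ≠ 1 := hneconj u
  have h₂ : x₂ ≠ 1 := hneconj v
  have ho₁ : Odd (orderOf x₁) := hoddconj u
  have ho₂ : Odd (orderOf x₂) := hoddconj v
  -- The two small groups
  have hK₁ : Nat.card ↥(NN x₁ ⊓ NN x₂) ≤ 4 := by
    apply card_le_four hc h₁ ho₁ inf_le_left
    intro y hy hyC
    by_contra hy1
    have hyo := odd_of_mem_Cz hc h₁ ho₁ hyC
    have h3 : y ∈ Cz x₂ := (good_of_odd hc h₂ ho₂).norm y hy.2 hyo
    have h4 := (good_of_odd hc h₁ ho₁).eq y hyC hy1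
    have h5 := (good_of_odd hc h₂ ho₂).eq y h3 hy1
    have h6 : x₂ ∈ Cz x₁ := by
      rw [← h4, h5]
      exact self_mem_Cz _
    apply inv_not_mem_Cz hc h₁ ho₁ ht
    rw [← h12]
    exact (Cz x₁).mul_mem (self_mem_Cz _) h6
  have hK' : Nat.card ↥(NN x ⊓ Cz t) ≤ 4 := by
    apply card_le_four hc hx1 hodd inf_le_left
    intro y hy hyC
    by_contra hy1
    have h4 := hG.eq y hyC hy1
    have h5 : t ∈ Cz y := by
      rw [mem_Cz_comm]
      exact hy.2
    rw [h4] at h5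
    exact inv_not_mem_Cz hc hx1 hodd ht h5
  have hcardCz : Nat.card (Cz t) = (2 ^ (2 * m + 1)) ^ 2 := by
    obtain ⟨g₀, hg₀⟩ := exists_conj_zz hc ht
    have h3 : IsConj t (zz hc) := isConj_iff.2 ⟨g₀, hg₀⟩
    rw [← card_Cz_of_isConj hc h3, ← card_Usub hc]
    refine Nat.card_congr (Equiv.setCongr ?_)
    ext c
    constructor
    · intro h
      apply mem_Usub_of_comm hc
      exact (mem_Cz.1 h).symm
    · intro h
      exact mem_Cz.2 (comm_of_mem_Usub hc h).symm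
  obtain ⟨g, hg, hgood⟩ : ∃ g ∈ Cz t, ∀ a b, MC H g a → MC H u a → MC H v b → t ≠ a * b := by
    by_contra hall
    push Not at hall
    choose! A B hA hA' hB hAB using hall
    let S₁ : Set (Sz F m) := {a | a ∈ NN x₁ ∧ a⁻¹ * t ∈ NN x₂}
    have hS₁ : S₁.ncard ≤ 4 := by
      refine (ncard_le_of_coset (K := NN x₁ ⊓ NN x₂) S₁ ?_).trans hK₁
      rintro a ⟨ha, ha'⟩ b ⟨hb, hb'⟩
      refine ⟨(NN x₁).mul_mem ((NN x₁).inv_mem ha) hb, ?_⟩
      have h3 := (NN x₂).mul_mem ha' ((NN x₂).inv_mem hb')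
      have e : a⁻¹ * t * (b⁻¹ * t)⁻¹ = a⁻¹ * b := by group
      rwa [e] at h3
    have hkey : ∀ g ∈ Cz t, Cz (g * x * g⁻¹) = Cz ((A g)⁻¹ * (A g)⁻¹ * t) := by
      intro g hg
      have e : B g = (A g)⁻¹ * t := by
        have := hAB g hg
        rw [this]
        group
      refine bad_key hc h₁ ho₁ h₂ ho₂ (hneconj g) (hoddconj g) ht h12 (hMC (hA' g hg)) (hMC (hB g hg))
        (hMC (hA g hg)) ?_ (hAB g hg)
      apply hMC
      have e2 : g⁻¹ * t * g = t := by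
        have := mem_Cz.1 hg
        rw [mul_assoc, this]
        group
      show g⁻¹ * t * g ∈ H
      rw [e2]
      exact htH
    have hfib : ∀ b ∈ S₁, {a | a ∈ ((Cz t : Subgroup (Sz F m)) : Set (Sz F m)) ∧ A a = b}.ncard ≤ 4 := by
      intro b hb
      refine (ncard_le_of_coset (K := NN x ⊓ Cz t) _ ?_).trans hK'
      rintro g ⟨hg, hgb⟩ g' ⟨hg', hg'b⟩
      refine ⟨?_, (Cz t).mul_mem ((Cz t).inv_mem hg) hg'⟩
      apply mem_NN_of_conj_mem_Cz hc hx1 hodd
      have h3 : Cz (g * x * g⁻¹) = Cz (g' * x * g'⁻¹) := by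
        rw [hkey g hg, hkey g' hg', hgb, hg'b]
      have h4 : g' * x * g'⁻¹ ∈ Cz (g * x * g⁻¹) := by
        rw [h3]
        exact self_mem_Cz _
      have h5 : g⁻¹ * (g' * x * g'⁻¹) * g ∈ Cz x := by
        have e : g * x * g⁻¹ = g * x * g⁻¹ := rfl
        have h6 := (conj_mem_Cz hc (g := g * x * g⁻¹) (c := g' * x * g'⁻¹) (t := g⁻¹)).2 h4
        have e1 : g⁻¹ * (g * x * g⁻¹) * g⁻¹⁻¹ = x := by group
        have e2 : g⁻¹ * (g' * x * g'⁻¹) * g⁻¹⁻¹ = g⁻¹ * (g' * x * g'⁻¹) * g := by group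
        rwa [e1, e2] at h6
      have e : g⁻¹ * g' * x * (g⁻¹ * g')⁻¹ = g⁻¹ * (g' * x * g'⁻¹) * g := by group
      rw [e]
      exact h5
    have hmaps : ∀ g ∈ ((Cz t : Subgroup (Sz F m)) : Set (Sz F m)), A g ∈ S₁ := by
      intro g hg
      refine ⟨hMC (hA' g hg), ?_⟩
      have e : (A g)⁻¹ * t = B g := by
        rw [hAB g hg]
        group
      rw [e]
      exact hMC (hB g hg)
    have hbound := fiber_bound _ S₁ (Set.toFinite _) (Set.toFinite _) A hmaps 4 hfib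
    rw [← Nat.card_coe_set_eq, show Nat.card ((Cz t : Subgroup (Sz F m)) : Set (Sz F m)) = Nat.card (Cz t) from rfl, hcardCz] at hbound
    have h3 : 4 * S₁.ncard ≤ 4 * 4 := Nat.mul_le_mul_left _ hS₁
    have hm1 := hc.hm
    have h4 : 2 ^ 3 ≤ 2 ^ (2 * m + 1) := Nat.pow_le_pow_right (by norm_num) (by omega)
    have h5 : (2 ^ 3) ^ 2 ≤ (2 ^ (2 * m + 1)) ^ 2 := Nat.pow_le_pow_left h4 2
    omega
  refine ⟨g, u, v, t, x₁, x₂, ?_, MC_conj_self hxH, MC_conj_self hxH, h12.symm, ?_⟩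
  · show g⁻¹ * t * g ∈ H
    have e2 : g⁻¹ * t * g = t := by
      have := mem_Cz.1 hg
      rw [mul_assoc, this]
      group
    rw [e2]
    exact htH
  · intro a b ha ha' hb hab
    exact hgood a b ha ha' hb hab

end Cfsg.Agent.Lib.SzChar.Binary
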