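import Mathlib
import Cfsg.Agent.Lib.SzChar.BinNN

/-!
Binary coset actions of the Suzuki groups: subgroups of even order of Suzuki subgroups over subfields.
-/

set_option autoImplicit false
set_option linter.unusedSimpArgs false
set_option linter.unusedSectionVars false
set_option linter.style.haveILetI false

namespace Cfsg.Agent.Lib.SzChar.Binary

open Cfsg Cfsg.Agent.Lib.Suzuki.Core Cfsg.Agent.Lib.Suzuki.Elements
  Cfsg.Agent.Lib.Suzuki.Stab Cfsg.Agent.Lib.Suzuki.Group Cfsg.Agent.Lib.Suzuki.Simple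
  Cfsg.Agent.Lib.Suzuki.Sylow2 Cfsg.Agent.Lib.Suzuki.Count Cfsg.Agent.Lib.SzIso.OutSz
  Cfsg.Agent.Lib.SzIso.SubSz Cfsg.Agent.Lib.Suzuki.Cyc Cfsg.Agent.Lib.Suzuki.CN
  Cfsg.Agent.Lib.SuzukiX.Partition Cfsg.Agent.Lib.SuzukiX.Central Cfsg.Agent.Lib.SzIso.MaxSz
  Cfsg.Agent.Lib.Suzuki.Exc Cfsg.Agent.Lib.Suzuki.TI Cfsg.Agent.Lib.SzIso.SolSz
  Cfsg.Agent.Lib.SzChar.Tori Cfsg.Agent.Lib.SzChar.Table Cfsg.Agent.Lib.SzIso.Fix2
  Cfsg.Agent.Lib.SzChar.Ore Cfsg.Agent.Lib.SzChar.BinAbs Cfsg.Agent.Lib.SzChar.Values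

variable {F : Type*} [Field F] [Fintype F] [CharP F 2] {m : ℕ} (hc : Ctx F m)

lemma hS_smul_ptO (l : Fˣ) (x y : F) :
    hS hc l • (ptO x y : OO F m) = ptO ((l : F) * x) ((l : F) * th m (l : F) * y) := by
  apply Subtype.ext
  rw [coe_smul_O]
  exact hS_smul_pt hc l x y

lemma hS_smul_infO (l : Fˣ) : hS hc l • (infO : OO F m) = infO := by
  apply Subtype.ext
  rw [coe_smul_O]
  exact hS_smul_inf hc l

lemma hS_smul_zeroO (l : Fˣ) : hS hc l • (ptO 0 0 : OO F m) = ptO 0 0 := by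
  apply Subtype.ext
  rw [coe_smul_O]
  exact hS_smul_zero hc l

omit [Fintype F] [CharP F 2] in
lemma ptO_ne_infO {x y : F} : (ptO x y : OO F m) ≠ infO := by
  intro h
  exact pt_ne_inf (congrArg Subtype.val h)

section Range

variable {K : Type*} [Field K] [Fintype K] [CharP K 2] {k : ℕ}

/-- The orbit of infinity under the subfield group. -/
def InO (σ : K →+* F) (q : OO F m) : Prop := q = infO ∨ ∃ x y : K, q = ptO (σ x) (σ y)

lemma two_point (σ : K →+* F) {l : Fˣ} (hl : ∀ w, (l : F) ≠ σ w) (hlc : ∀ w, (l : F) * th m (l : F) ≠ σ w)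
    {q : OO F m} (hq : InO σ q) (hq' : InO σ ((hS hc l)⁻¹ • q)) : q = infO ∨ q = ptO 0 0 := by
  rcases hq with h | ⟨x, y, rfl⟩
  · exact Or.inl h
  right
  rw [hS_inv, hS_smul_ptO] at hq'
  rcases hq' with h | ⟨x', y', h⟩
  · exact absurd h ptO_ne_infO
  obtain ⟨h1, h2⟩ := ptO_inj h
  have hl0 : (l : F) ≠ 0 := l.ne_zero
  have hθ : th m (l : F) ≠ 0 := th_ne_zero m hl0
  rw [Units.val_inv_eq_inv_val, th_inv] at h2
  rw [Units.val_inv_eq_inv_val] at h1
  have hx : x = 0 := by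
    by_contra hx0
    have hσx : σ x ≠ 0 := (map_ne_zero σ).2 hx0
    have hx'0 : σ x' ≠ 0 := by
      rw [← h1]
      exact mul_ne_zero (inv_ne_zero hl0) hσx
    apply hl (x / x')
    rw [map_div₀, ← h1]
    field_simp
  have hy : y = 0 := by
    by_contra hy0
    have hσy : σ y ≠ 0 := (map_ne_zero σ).2 hy0
    have hy'0 : σ y' ≠ 0 := by
      rw [← h2]
      exact mul_ne_zero (mul_ne_zero (inv_ne_zero hl0) (inv_ne_zero hθ)) hσy
    apply hlc (y / y')
    rw [map_div₀, ← h2]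
    field_simp
  subst hx
  subst hy
  rw [map_zero]

variable (hth : ∀ (σ : K →+* F) (x : K), th m (σ x) = σ (th k x)) (hcK : Ctx K k)

lemma embed_inf (σ : K →+* F) (y : Sz K k) : InO σ (embed hth hcK hc σ y • (infO : OO F m)) := by
  rcases bruhat hcK y with ⟨a, b, l, rfl⟩ | ⟨x, y', a, b, l, rfl⟩
  · left
    rw [map_mul, embed_uS, embed_hS]
    apply Subtype.ext
    rw [coe_smul_O]
    show (uS hc (σ a) (σ b) * hS hc _) • suzukiPointInfinity F = suzukiPointInfinity F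
    rw [mul_smul, hS_smul_inf, uS_smul_inf]
  · right
    refine ⟨x, y', ?_⟩
    rw [map_mul, map_mul, map_mul, embed_uS, embed_hS, embed_uS, embed_wS]
    apply Subtype.ext
    rw [coe_smul_O]
    show ((uS hc (σ x) (σ y') * wS hc) * (uS hc (σ a) (σ b) * hS hc _)) • suzukiPointInfinity F = pt m (σ x) (σ y')
    rw [mul_smul (uS hc (σ x) (σ y') * wS hc), mul_smul (uS hc (σ a) (σ b)), hS_smul_inf, uS_smul_inf,
      uS_wS_smul_inf]

lemma embed_zero (σ : K →+* F) (y : Sz K k) : InO σ (embed hth hcK hc σ y • (ptO 0 0 : OO F m)) := by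
  have h := embed_inf hc hth hcK σ (y * wS hcK)
  rw [map_mul, embed_wS, mul_smul] at h
  have e : wS hc • (infO : OO F m) = ptO 0 0 := by
    apply Subtype.ext
    rw [coe_smul_O]
    exact wS_smul_inf hc
  rwa [e] at h

/-- The core: subgroups of the subfield group containing the central involution `uS 0 1`. -/
theorem wit_range_core (σ : K →+* F) {H : Subgroup (Sz F m)} (hHR : H ≤ (embed hth hcK hc σ).range)
    (h1 : uS hc 0 1 ∈ H) {c : F} (hcσ : ∀ w, c ≠ σ w) : Wit H := by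
  have h2F : (2 : F) = 0 := CharP.cast_eq_zero F 2
  have hc0 : c ≠ 0 := by
    intro h
    apply hcσ 0
    rw [h, map_zero]
  have hc1 : 1 + c ≠ 0 := by
    intro h
    apply hcσ 1
    rw [map_one]
    linear_combination h + (-1 : F) * h2F
  have hc1σ : ∀ w, 1 + c ≠ σ w := by
    intro w h
    apply hcσ (1 + w)
    rw [map_add, map_one, ← h]
    linear_combination (-1 : F) * h2F
  obtain ⟨l₂, hl₂⟩ := exists_unit hc hc0
  obtain ⟨l₃, hl₃⟩ := exists_unit hc hc1
  have hnot : ∀ (l : Fˣ), (∀ w, (l : F) * th m (l : F) ≠ σ w) → ∀ w, (l : F) ≠ σ w := by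
    intro l hl w hw
    apply hl (w * th k w)
    rw [hw, map_mul, hth]
  -- the main step
  have hkey : ∀ (l : Fˣ), (∀ w, (l : F) * th m (l : F) ≠ σ w) → ∀ a, a ∈ H → MC H (hS hc l) a →
      ∀ q : OO F m, (q = infO ∨ q = ptO 0 0) → (a • q = infO ∨ a • q = ptO 0 0) := by
    intro l hl a ha ha' q hq
    obtain ⟨y, rfl⟩ := hHR ha
    obtain ⟨y', hy'⟩ := hHR ha'
    have hconj : (hS hc l)⁻¹ • (embed hth hcK hc σ y • q) = embed hth hcK hc σ y' • q := by
      rw [hy', mul_smul, mul_smul]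
      have : hS hc l • q = q := by
        rcases hq with rfl | rfl
        · exact hS_smul_infO hc l
        · exact hS_smul_zeroO hc l
      rw [this]
    apply two_point hc σ (hnot l hl) hl
    · rcases hq with rfl | rfl
      · exact embed_inf hc hth hcK σ y
      · exact embed_zero hc hth hcK σ y
    · rw [hconj]
      rcases hq with rfl | rfl
      · exact embed_inf hc hth hcK σ y'
      · exact embed_zero hc hth hcK σ y'
  refine ⟨1, hS hc l₂, hS hc l₃, uS hc 0 1, uS hc 0 c, uS hc 0 (1 + c), MC_one.2 h1, ?_, ?_, ?_, ?_⟩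
  · show (hS hc l₂)⁻¹ * uS hc 0 c * hS hc l₂ ∈ H
    rw [conj_inv_hS, hl₂, div_self hc0]
    exact h1
  · show (hS hc l₃)⁻¹ * uS hc 0 (1 + c) * hS hc l₃ ∈ H
    rw [conj_inv_hS, hl₃, div_self hc1]
    exact h1
  · rw [uS_zero_mul]
    congr 1
    linear_combination (-c) * h2F
  · intro a b ha ha' hb hab
    have haH : a ∈ H := MC_one.1 ha
    have hbH : b ∈ H := by
      have e : b = a⁻¹ * uS hc 0 1 := by rw [hab]; group
      rw [e]
      exact H.mul_mem (H.inv_mem haH) h1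
    have h3 := hkey l₃ (by rw [hl₃]; exact hc1σ) b hbH hb (ptO 0 0) (Or.inr rfl)
    have h4 := hkey l₂ (by rw [hl₂]; exact hcσ) a haH ha' (b • ptO 0 0) h3
    rw [← mul_smul, ← hab] at h4
    have e : uS hc 0 1 • (ptO 0 0 : OO F m) = ptO 0 1 := by
      rw [act_central, zero_add]
    rw [e] at h4
    rcases h4 with h | h
    · exact ptO_ne_infO h
    · exact one_ne_zero (ptO_inj h).2

end Range

include hc in
/-- Subgroups of even order of Suzuki subgroups over subfields. -/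
theorem wit_range {K : Type*} [Field K] [Fintype K] {k : ℕ} (hk : 1 ≤ k) (hkm : k < m)
    (hK : Fintype.card K = 2 ^ (2 * k + 1)) (hdiv : 2 * k + 1 ∣ 2 * m + 1) {S : Subgroup (Sz F m)}
    (φ : S ≃* Sz K k) {H : Subgroup (Sz F m)} (hHS : H ≤ S) {t : Sz F m} (ht : IsInv t) (htH : t ∈ H) :
    Wit H := by
  haveI hchK : CharP K 2 := charP_two_of_card hK
  have hcK := ctx_of_card hk hK
  have hth : ∀ (σ : K →+* F) (x : K), th m (σ x) = σ (th k x) := fun σ x => th_sigma hK hdiv σ x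
  obtain ⟨d, hd⟩ := hdiv
  obtain ⟨σ⟩ := Cfsg.Agent.Lib.KS71.FieldEmb.exists_ringHom_of_card (n := d) hK (by
    rw [hc.hcard, hd, pow_mul])
  obtain ⟨g, hg⟩ := conj_to_range hth hcK hc σ S φ
  have hmemR : ∀ w ∈ H, g * w * g⁻¹ ∈ (embed hth hcK hc σ).range := by
    intro w hw
    rw [← hg]
    exact ⟨w, hHS hw, rfl⟩
  obtain ⟨y, hy⟩ := hmemR t htH
  have hinj := embed_injective hth hcK hc σ
  have hyI : IsInv y := by
    constructor
    · rintro rfl
      rw [map_one] at hy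
      apply ht.1
      have e : t = g⁻¹ * (g * t * g⁻¹) * g := by group
      rw [e, ← hy]
      group
    · apply hinj
      rw [map_mul, hy, map_one]
      have e : g * t * g⁻¹ * (g * t * g⁻¹) = g * (t * t) * g⁻¹ := by group
      rw [e, ht.2]
      group
  obtain ⟨s, hs⟩ := exists_conj_zz hcK hyI
  apply wit_of_map_conj (embed hth hcK hc σ s * g)
  obtain ⟨c, hcσ⟩ : ∃ c : F, ∀ w, c ≠ σ w := by
    by_contra hall
    push Not at hall
    have hsurj : Function.Surjective σ := fun c => by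
      obtain ⟨w, hw⟩ := hall c
      exact ⟨w, hw.symm⟩
    have h3 := Fintype.card_le_of_surjective σ hsurj
    rw [hc.hcard, hK] at h3
    have h4 := Nat.pow_lt_pow_right (a := 2) (by norm_num) (show 2 * k + 1 < 2 * m + 1 by omega)
    omega
  refine wit_range_core hc hth hcK σ ?_ ?_ hcσ
  · rintro _ ⟨w, hw, rfl⟩
    obtain ⟨y', hy'⟩ := hmemR w hw
    refine ⟨s * y' * s⁻¹, ?_⟩
    rw [map_mul, map_mul, map_inv, hy']
    show _ = (embed hth hcK hc σ s * g) * w * (embed hth hcK hc σ s * g)⁻¹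
    group
  · refine ⟨t, htH, ?_⟩
    show (embed hth hcK hc σ s * g) * t * (embed hth hcK hc σ s * g)⁻¹ = uS hc 0 1
    have e : (embed hth hcK hc σ s * g) * t * (embed hth hcK hc σ s * g)⁻¹ =
        embed hth hcK hc σ s * (g * t * g⁻¹) * (embed hth hcK hc σ s)⁻¹ := by group
    rw [e, ← hy, ← map_inv, ← map_mul, ← map_mul, hs]
    show embed hth hcK hc σ (uS hcK 0 1) = _
    rw [embed_uS, map_zero, map_one]

end Cfsg.Agent.Lib.SzChar.Binary
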