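import Mathlib
import Cfsg.Agent.Lib.SzChar.BinRange

/-!
Binary coset actions of the Suzuki groups: the subgroups which are not binary.
-/

set_option autoImplicit false
set_option linter.unusedSimpArgs false
set_option linter.unusedSectionVars false
set_option linter.style.haveILetI false

namespace Cfsg.Agent.Lib.SzChar.Binary

open Cfsg Cfsg.Agent.Lib.Suzuki.Core Cfsg.Agent.Lib.Suzuki.Elements
  Cfsg.Agent.Lib.Suzuki.Stab Cfsg.Agent.Lib.Suzuki.Group Cfsg.Agent.Lib.Suzuki.Simple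
  Cfsg.Agent.Lib.Suzuki.Sylow2 Cfsg.Agent.Lib.Suzuki.Count Cfsg.Agent.Lib.SzIso.OutSz
  Cfsg.Agent.Lib.SzIso.SubSz Cfsg.Agent.Lib.Suzuki.Cyc Cfsg.Agent.Lib.Suzuki.CN
  Cfsg.Agent.Lib.SuzukiX.Partition Cfsg.Agent.Lib.SuzukiX.Central Cfsg.Agent.Lib.SzIso.MaxSz
  Cfsg.Agent.Lib.Suzuki.Exc Cfsg.Agent.Lib.Suzuki.TI Cfsg.Agent.Lib.SzIso.SolSz
  Cfsg.Agent.Lib.SzChar.Tori Cfsg.Agent.Lib.SzChar.Table Cfsg.Agent.Lib.SzIso.Fix2
  Cfsg.Agent.Lib.SzChar.Ore Cfsg.Agent.Lib.SzChar.BinAbs Cfsg.Agent.Lib.SzChar.Values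

variable {F : Type*} [Field F] [Fintype F] [CharP F 2] {m : ℕ} (hc : Ctx F m)

include hc in
/-- An element of a subgroup fixing infinity of even order which is not of odd order. -/
lemma le_Usub_of_no_odd {H : Subgroup (Sz F m)} (hfix : ∀ g ∈ H, g • (infO : OO F m) = infO)
    (hno : ¬ ∃ x ∈ H, x ≠ 1 ∧ Odd (orderOf x)) : H ≤ Usub hc := by
  intro y hy
  by_cases hy1 : y = 1
  · rw [hy1]
    exact (Usub hc).one_mem
  rcases trichotomy hy1 with h | h | h
  · exact mem_Usub_of_pow_four hc (hfix y hy) (Y1_two_power hc h)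
  · exact absurd ⟨y, hy, hy1, IsT_odd hc h⟩ hno
  · exact absurd ⟨y, hy, hy1, odd_of_IsFPF hc h⟩ hno

include hc in
/-- Subgroups fixing infinity, of even order. -/
theorem wit_inf {H : Subgroup (Sz F m)} (hfix : ∀ g ∈ H, g • (infO : OO F m) = infO)
    {t : Sz F m} (ht : IsInv t) (htH : t ∈ H) (hne : H ≠ ZZ hc) : Wit H := by
  by_cases hx : ∃ x ∈ H, x ≠ 1 ∧ Odd (orderOf x)
  · obtain ⟨x, hxH, hx1, hodd⟩ := hx
    exact wit_borel hc hfix ht htH hxH hx1 hodd
  · have hU := le_Usub_of_no_odd hc hfix hx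
    by_cases h2 : ∃ x ∈ H, x * x ≠ 1
    · obtain ⟨x, hxH, hxx⟩ := h2
      exact wit_two hc hU hxH hxx
    · push Not at h2
      have hZ : H ≤ ZZ hc := by
        intro y hy
        rw [mem_ZZ_iff]
        by_cases hy1 : y = 1
        · exact Or.inl hy1
        · exact Or.inr ⟨⟨hy1, h2 y hy⟩, hfix y hy⟩
      refine wit_elem hc hZ ?_ hne
      intro h
      rw [h] at htH
      exact ht.1 ((Subgroup.mem_bot).1 htH)

include hc in
/-- Subgroups fixing a point, of even order. -/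
theorem wit_fix {H : Subgroup (Sz F m)} {p : OO F m} (hfix : ∀ g ∈ H, g • p = p)
    {t : Sz F m} (ht : IsInv t) (htH : t ∈ H)
    (hne : ∀ t : Sz F m, H ≠ (ZZ hc).map (MulAut.conj t).toMonoidHom) : Wit H := by
  obtain ⟨g, hg⟩ := exists_smul_eq_inf hc p
  apply wit_of_map_conj g
  refine wit_inf hc (t := g * t * g⁻¹) ?_ (ht.conj g) ⟨t, htH, rfl⟩ ?_
  · rintro _ ⟨w, hw, rfl⟩
    show (g * w * g⁻¹) • (infO : OO F m) = infO
    rw [mul_smul, mul_smul, ← hg, inv_smul_smul, hfix w hw]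
  · intro h
    apply hne g⁻¹
    rw [← h]
    ext y
    constructor
    · intro hy
      refine ⟨g * y * g⁻¹, ⟨y, hy, rfl⟩, ?_⟩
      show g⁻¹ * (g * y * g⁻¹) * g⁻¹⁻¹ = y
      group
    · rintro ⟨_, ⟨w, hw, rfl⟩, rfl⟩
      show g⁻¹ * (g * w * g⁻¹) * g⁻¹⁻¹ ∈ H
      have e : g⁻¹ * (g * w * g⁻¹) * g⁻¹⁻¹ = w := by group
      rwa [e]

include hc in
/-- The main theorem on subgroups: all subgroups but the trivial ones are not binary. -/
theorem wit_main {H : Subgroup (Sz F m)} (htop : H ≠ ⊤) (hbot : H ≠ ⊥)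
    (hne : ∀ t : Sz F m, H ≠ (ZZ hc).map (MulAut.conj t).toMonoidHom) : Wit H := by
  by_cases hodd : Odd (Nat.card H)
  · exact wit_odd hc hodd hbot
  obtain ⟨t, ht, htH⟩ : ∃ t : Sz F m, IsInv t ∧ t ∈ H := by
    have h2 : 2 ∣ Nat.card H := by
      rw [← even_iff_two_dvd]
      exact Nat.not_odd_iff_even.1 hodd
    haveI : Fact (Nat.Prime 2) := ⟨Nat.prime_two⟩
    obtain ⟨x, hx⟩ := exists_prime_orderOf_dvd_card' (G := H) 2 h2
    refine ⟨x, ⟨?_, ?_⟩, x.2⟩
    · intro h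
      have h1 : x = 1 := Subtype.ext h
      rw [h1, orderOf_one] at hx
      omega
    · have h3 : x ^ 2 = 1 := by
        rw [← hx]
        exact pow_orderOf_eq_one x
      have h4 : (x : Sz F m) ^ 2 = 1 := by
        have := congrArg Subtype.val h3
        simpa using this
      rw [pow_two] at h4
      exact h4
  rcases classify' hc htop with ⟨p, hp⟩ | ⟨a, ha1, haodd, hHN⟩ | ⟨K, _, _, k, hk, hkm, hK, hdiv, S, ⟨φ⟩, hHS⟩
  · exact wit_fix hc hp ht htH hne
  · by_cases hx : ∃ x ∈ H, x ≠ 1 ∧ Odd (orderOf x)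
    · obtain ⟨x, hxH, hx1, hxodd⟩ := hx
      have hG := good_of_odd hc ha1 haodd
      have h3 : x ∈ Cz a := hG.norm x (hHN hxH) hxodd
      have h4 := hG.eq x h3 hx1
      have h5 : H ≤ NN x := by
        rw [NN, h4]
        exact hHN
      exact wit_nn hc h5 hxH hx1 hxodd ht htH
    · -- a `2`-group
      have hP : IsPGroup 2 H := by
        intro y
        refine ⟨2, ?_⟩
        by_cases hy1 : (y : Sz F m) = 1
        · have : y = 1 := Subtype.ext hy1
          rw [this, one_pow]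
        · rcases trichotomy hy1 with h | h | h
          · apply Subtype.ext
            have h4 := Y1_two_power hc h
            simpa using h4
          · exact absurd ⟨y, y.2, hy1, IsT_odd hc h⟩ hx
          · exact absurd ⟨y, y.2, hy1, odd_of_IsFPF hc h⟩ hx
      obtain ⟨p, hp⟩ := exists_fix_of_isPGroup hc hP
      exact wit_fix hc hp ht htH hne
  · exact wit_range hc hk hkm hK hdiv φ hHS ht htH

/-- Membership in the image of the centre. -/
lemma mem_center_map' {G : Type*} [Group G] {P : Subgroup G} {y : G} :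
    y ∈ (Subgroup.center P).map P.subtype ↔ y ∈ P ∧ ∀ w ∈ P, w * y = y * w := by
  constructor
  · rintro ⟨⟨z, hz⟩, hzc, rfl⟩
    refine ⟨hz, fun w hw => ?_⟩
    have := Subgroup.mem_center_iff.1 hzc ⟨w, hw⟩
    exact congrArg Subtype.val this
  · rintro ⟨hy, h⟩
    exact ⟨⟨y, hy⟩, Subgroup.mem_center_iff.2 (fun w => Subtype.ext (h w w.2)), rfl⟩

lemma mem_map_conj' {G : Type*} [Group G] {A : Subgroup G} {t y : G} :
    y ∈ A.map (MulAut.conj t).toMonoidHom ↔ t⁻¹ * y * t ∈ A := by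
  constructor
  · rintro ⟨w, hw, rfl⟩
    show t⁻¹ * (t * w * t⁻¹) * t ∈ A
    have e : t⁻¹ * (t * w * t⁻¹) * t = w := by group
    rwa [e]
  · intro h
    refine ⟨_, h, ?_⟩
    show t * (t⁻¹ * y * t) * t⁻¹ = y
    group

/-- The transport of the centre of a Sylow subgroup. -/
lemma key_center {G : Type*} [Group G] (e : Sz F m ≃* G) {P : Subgroup G} {t : Sz F m}
    (hP : P.comap e.toMonoidHom = (Usub hc).map (MulAut.conj t).toMonoidHom) (H : Subgroup G) :
    H.comap e.toMonoidHom = (ZZ hc).map (MulAut.conj t).toMonoidHom ↔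
      H = (Subgroup.center P).map P.subtype := by
  have hmemP : ∀ y : Sz F m, e y ∈ P ↔ t⁻¹ * y * t ∈ Usub hc := by
    intro y
    have h1 : y ∈ P.comap e.toMonoidHom ↔ e y ∈ P := Iff.rfl
    rw [← h1, hP, mem_map_conj']
  have hA : ((Subgroup.center P).map P.subtype).comap e.toMonoidHom =
      (ZZ hc).map (MulAut.conj t).toMonoidHom := by
    ext y
    rw [mem_map_conj', ZZ, mem_center_map', Subgroup.mem_comap, mem_center_map']
    show e y ∈ P ∧ _ ↔ _
    rw [hmemP]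
    refine and_congr_right (fun _ => ?_)
    constructor
    · intro h w hw
      have h1 : e (t * w * t⁻¹) ∈ P := by
        rw [hmemP]
        have e1 : t⁻¹ * (t * w * t⁻¹) * t = w := by group
        rwa [e1]
      have h2 := h _ h1
      rw [show e.toMonoidHom y = e y from rfl, ← map_mul, ← map_mul] at h2
      have h3 := e.injective h2
      calc w * (t⁻¹ * y * t) = t⁻¹ * ((t * w * t⁻¹) * y) * t := by group
        _ = t⁻¹ * (y * (t * w * t⁻¹)) * t := by rw [h3]
        _ = (t⁻¹ * y * t) * w := by group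
    · intro h w hw
      obtain ⟨w, rfl⟩ := e.surjective w
      rw [hmemP] at hw
      have h2 := h _ hw
      rw [show e.toMonoidHom y = e y from rfl, ← map_mul, ← map_mul]
      congr 1
      calc w * y = t * ((t⁻¹ * w * t) * (t⁻¹ * y * t)) * t⁻¹ := by group
        _ = t * ((t⁻¹ * y * t) * (t⁻¹ * w * t)) * t⁻¹ := by rw [h2]
        _ = y * w := by group
  rw [← hA]
  exact (Subgroup.comap_injective e.surjective).eq_iff

end Cfsg.Agent.Lib.SzChar.Binary
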